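import Groth.Agent.Pi1.H147.Slit
import Mathlib.Analysis.InnerProductSpace.Basic
import Mathlib.Analysis.Complex.Norm
import Mathlib.Analysis.Normed.Module.Convex

/-!
# Punctured discs around the points `b i` and around infinity, cut into two halves
-/

set_option autoImplicit false

open Topology Set

namespace Groth.Agent.Pi1.H147.Disc

open Groth.Agent.Pi1.H147.Sec Groth.Agent.Pi1.H147.Slit

variable {n : ℕ} (b : Fin n → ℂ)

/-! ### discs around `b i` -/

/-- `r` is smaller than the horizontal distance from `b i` to the other points. -/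
def IsSmall (i : Fin n) (r : ℝ) : Prop := 0 < r ∧ ∀ k, k ≠ i → r ≤ |(b k).re - (b i).re|

/-- Half of the punctured disc. -/
def DHalf (i : Fin n) (r s : ℝ) : Set ℂ :=
  {z | z ∈ Metric.ball (b i) r ∧ (z.re = (b i).re → s * (b i).im < s * z.im)}

theorem exists_isSmall (hb : StrictMono fun i => (b i).re) (i : Fin n) : ∃ r, IsSmall b i r := by
  classical
  by_cases h : ∃ k, k ≠ i
  · obtain ⟨k, hk⟩ := h
    have hne : (Finset.univ.filter fun k => k ≠ i).Nonempty := ⟨k, by simpa using hk⟩
    refine ⟨(Finset.univ.filter fun k => k ≠ i).inf' hne fun k => |(b k).re - (b i).re|, ?_, ?_⟩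
    · rw [Finset.lt_inf'_iff]
      intro k hk
      have hki : k ≠ i := by simpa using hk
      exact abs_pos.2 (sub_ne_zero.2 fun h => hki (hb.injective h))
    · intro k hk
      exact Finset.inf'_le _ (by simpa using hk)
  · push Not at h
    exact ⟨1, one_pos, fun k hk => absurd (h k) hk⟩

theorem IsSmall.mono {i : Fin n} {r r' : ℝ} (h : IsSmall b i r) (h0 : 0 < r') (h1 : r' ≤ r) :
    IsSmall b i r' := ⟨h0, fun k hk => h1.trans (h.2 k hk)⟩

theorem abs_re_lt {i : Fin n} {r : ℝ} {z : ℂ} (hz : z ∈ Metric.ball (b i) r) :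
    |z.re - (b i).re| < r := by
  rw [Metric.mem_ball, Complex.dist_eq] at hz
  have := Complex.abs_re_le_norm (z - b i)
  rw [Complex.sub_re] at this
  exact this.trans_lt hz

theorem IsSmall.ne {i : Fin n} {r : ℝ} (h : IsSmall b i r) {z : ℂ}
    (hz : z ∈ Metric.ball (b i) r) {k : Fin n} (hk : z.re = (b k).re) : k = i := by
  by_contra hki
  have h1 := h.2 k hki
  have h2 := abs_re_lt b hz
  rw [hk] at h2
  linarith

theorem dHalf_subset {i : Fin n} {r : ℝ} (h : IsSmall b i r) (s : ℝ) : DHalf b i r s ⊆ Half b s := by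
  rintro z ⟨hz, hz'⟩ k hk
  obtain rfl := h.ne b hz hk
  exact hz' hk

theorem dHalf_mono {i : Fin n} {r r' : ℝ} (h : r' ≤ r) (s : ℝ) : DHalf b i r' s ⊆ DHalf b i r s :=
  fun _ hz => ⟨Metric.ball_subset_ball h hz.1, hz.2⟩

theorem isOpen_dHalf (i : Fin n) (r s : ℝ) : IsOpen (DHalf b i r s) := by
  have h : DHalf b i r s = Metric.ball (b i) r ∩ Half (fun _ : Fin 1 => b i) s := by
    ext z
    simp [DHalf, Half]
  rw [h]
  exact Metric.isOpen_ball.inter (isOpen_half _ s)

theorem dHalf_union {i : Fin n} {r : ℝ} :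
    DHalf b i r 1 ∪ DHalf b i r (-1) = Metric.ball (b i) r \ {b i} := by
  ext z
  constructor
  · rintro (⟨hz, hz'⟩ | ⟨hz, hz'⟩)
    · refine ⟨hz, fun h => ?_⟩
      have h' : z = b i := h
      have := hz' (by rw [h'])
      rw [h'] at this
      exact lt_irrefl _ this
    · refine ⟨hz, fun h => ?_⟩
      have h' : z = b i := h
      have := hz' (by rw [h'])
      rw [h'] at this
      exact lt_irrefl _ this
  · rintro ⟨hz, hne⟩
    by_cases hre : z.re = (b i).re
    · have him : z.im ≠ (b i).im := fun him => hne (Complex.ext hre him)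
      rcases lt_or_gt_of_ne him with h1 | h1
      · exact Or.inr ⟨hz, fun _ => by linarith⟩
      · exact Or.inl ⟨hz, fun _ => by linarith⟩
    · exact Or.inl ⟨hz, fun h => absurd h hre⟩

theorem isPreconnected_dHalf (i : Fin n) {r : ℝ} (hr : 0 < r) (s : ℝ) (hs : s * s = 1) :
    IsPreconnected (DHalf b i r s) := by
  have habs : |s| = 1 := abs_s s hs
  -- star convex around `b i + s * r / 2 * I`
  let c : ℂ := b i + ((s * (r / 2) : ℝ) : ℂ) * Complex.I
  have hcre : c.re = (b i).re := by simp [c]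
  have hcim : c.im = (b i).im + s * (r / 2) := by simp [c]
  have hc : c ∈ DHalf b i r s := by
    refine ⟨?_, fun _ => ?_⟩
    · rw [Metric.mem_ball, Complex.dist_eq]
      have : c - b i = ((s * (r / 2) : ℝ) : ℂ) * Complex.I := by simp [c]
      rw [this, norm_mul, Complex.norm_I, mul_one, Complex.norm_real, Real.norm_eq_abs, abs_mul,
        habs, one_mul, abs_of_pos (half_pos hr)]
      linarith
    · rw [hcim, mul_add, ← mul_assoc, hs, one_mul]
      linarith
  have hstar : StarConvex ℝ c (DHalf b i r s) := by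
    intro z hz p q hp hq hpq
    refine ⟨(convex_ball (b i) r) hc.1 hz.1 hp hq hpq, fun hre => ?_⟩
    have h1 : (p • c + q • z).re = p * c.re + q * z.re := by simp
    have h2 : (p • c + q • z).im = p * c.im + q * z.im := by simp
    rw [h1, hcre] at hre
    rw [h2, hcim]
    have h3 : q = 0 ∨ z.re = (b i).re := by
      have : q * (z.re - (b i).re) = 0 := by
        have : p = 1 - q := by linarith
        rw [this] at hre
        linarith
      rcases mul_eq_zero.1 this with h | h
      · exact Or.inl h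
      · exact Or.inr (by linarith)
    rcases h3 with h3 | h3
    · subst h3
      have : p = 1 := by linarith
      subst this
      have h4 : s * (1 * ((b i).im + s * (r / 2)) + 0 * z.im) =
        s * (b i).im + (s * s) * (r / 2) := by ring
      rw [h4, hs, one_mul]
      linarith
    · have h5 := hz.2 h3
      have h4 : s * (p * ((b i).im + s * (r / 2)) + q * z.im) =
        p * (s * (b i).im) + p * ((s * s) * (r / 2)) + q * (s * z.im) := by ring
      rw [h4, hs, one_mul]
      have h6 : s * (b i).im = p * (s * (b i).im) + q * (s * (b i).im) := by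
        rw [← add_mul, hpq, one_mul]
      rcases eq_or_lt_of_le hq with h7 | h7
      · subst h7
        have : p = 1 := by linarith
        subst this
        linarith
      · have h8 : q * (s * (b i).im) < q * (s * z.im) := mul_lt_mul_of_pos_left h5 h7
        have h9 : 0 ≤ p * (r / 2) := mul_nonneg hp (half_pos hr).le
        linarith
  exact (hstar.isPathConnected hc).isConnected.isPreconnected

theorem dHalf_inter {i : Fin n} {r : ℝ} (h : IsSmall b i r) (hb : StrictMono fun i => (b i).re) :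
    DHalf b i r 1 ∩ DHalf b i r (-1) ⊆ Strip b i.castSucc ∪ Strip b i.succ := by
  rintro z ⟨⟨hz, h1⟩, ⟨-, h2⟩⟩
  have hne : z.re ≠ (b i).re := by
    intro hre
    have := h1 hre
    have := h2 hre
    linarith
  have habs := abs_re_lt b hz
  rw [abs_lt] at habs
  have hlow : ∀ k, k < i → (b k).re < z.re := by
    intro k hk
    have h3 := h.2 k hk.ne
    have h4 : (b k).re < (b i).re := hb hk
    rw [abs_of_neg (by linarith)] at h3
    linarith
  have hhigh : ∀ k, i < k → z.re < (b k).re := by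
    intro k hk
    have h3 := h.2 k hk.ne'
    have h4 : (b i).re < (b k).re := hb hk
    rw [abs_of_pos (by linarith)] at h3
    linarith
  rcases lt_or_gt_of_ne hne with h3 | h3
  · left
    refine ⟨fun k hk => hlow k (Fin.castSucc_lt_castSucc_iff.1 hk), fun k hk => ?_⟩
    rcases eq_or_lt_of_le (Fin.castSucc_le_castSucc_iff.1 hk) with rfl | h5
    · exact h3
    · exact hhigh k h5
  · right
    refine ⟨fun k hk => ?_, fun k hk => ?_⟩
    · have h6 : k ≤ i := by
        rw [Fin.lt_def] at hk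
        rw [Fin.le_def]
        simp only [Fin.val_succ, Fin.val_castSucc] at hk
        omega
      rcases eq_or_lt_of_le h6 with rfl | h5
      · exact h3
      · exact hlow k h5
    · refine hhigh k ?_
      rw [Fin.le_def] at hk
      rw [Fin.lt_def]
      simp only [Fin.val_succ, Fin.val_castSucc] at hk
      omega

theorem inter_strip_left {i : Fin n} {r : ℝ} (h : IsSmall b i r)
    (hb : StrictMono fun i => (b i).re) :
    (DHalf b i r 1 ∩ DHalf b i r (-1) ∩ Strip b i.castSucc).Nonempty := by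
  have hr := h.1
  have h1 : b i - ((r / 2 : ℝ) : ℂ) ∈ Metric.ball (b i) r := by
    rw [Metric.mem_ball, Complex.dist_eq]
    simp only [sub_sub_cancel_left, norm_neg, Complex.norm_real, Real.norm_eq_abs]
    rw [abs_of_pos (half_pos hr)]
    linarith
  have hre : (b i - ((r / 2 : ℝ) : ℂ)).re = (b i).re - r / 2 := by
    rw [Complex.sub_re, Complex.ofReal_re]
  have h2 : ∀ s, b i - ((r / 2 : ℝ) : ℂ) ∈ DHalf b i r s := by
    intro s
    refine ⟨h1, fun h => ?_⟩
    rw [hre] at h
    linarith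
  refine ⟨b i - ((r / 2 : ℝ) : ℂ), ⟨h2 1, h2 (-1)⟩, ?_⟩
  rcases dHalf_inter b h hb ⟨h2 1, h2 (-1)⟩ with h3 | h3
  · exact h3
  · have := h3.1 i (Fin.castSucc_lt_succ)
    rw [hre] at this
    linarith

theorem inter_strip_right {i : Fin n} {r : ℝ} (h : IsSmall b i r)
    (hb : StrictMono fun i => (b i).re) :
    (DHalf b i r 1 ∩ DHalf b i r (-1) ∩ Strip b i.succ).Nonempty := by
  have hr := h.1
  have h1 : b i + ((r / 2 : ℝ) : ℂ) ∈ Metric.ball (b i) r := by
    rw [Metric.mem_ball, Complex.dist_eq]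
    simp only [add_sub_cancel_left, Complex.norm_real, Real.norm_eq_abs]
    rw [abs_of_pos (half_pos hr)]
    linarith
  have hre : (b i + ((r / 2 : ℝ) : ℂ)).re = (b i).re + r / 2 := by
    rw [Complex.add_re, Complex.ofReal_re]
  have h2 : ∀ s, b i + ((r / 2 : ℝ) : ℂ) ∈ DHalf b i r s := by
    intro s
    refine ⟨h1, fun h => ?_⟩
    rw [hre] at h
    linarith
  refine ⟨b i + ((r / 2 : ℝ) : ℂ), ⟨h2 1, h2 (-1)⟩, ?_⟩
  rcases dHalf_inter b h hb ⟨h2 1, h2 (-1)⟩ with h3 | h3
  · have := h3.2 i le_rfl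
    rw [hre] at this
    linarith
  · exact h3

/-! ### the disc at infinity -/

/-- `M` bounds the `b i` (strictly) and `2 M ≤ R`. -/
def IsLarge (M R : ℝ) : Prop := 0 < M ∧ (∀ i, ‖b i‖ < M) ∧ 2 * M ≤ R

theorem exists_bound : ∃ M : ℝ, 0 < M ∧ ∀ i, ‖b i‖ < M := by
  rcases (Set.finite_range fun i => ‖b i‖).bddAbove with ⟨M, hM⟩
  refine ⟨max M 0 + 1, by positivity, fun i => ?_⟩
  have := hM ⟨i, rfl⟩
  simp only at this
  exact lt_of_le_of_lt (this.trans (le_max_left M 0)) (lt_add_one _)

theorem exists_isLarge : ∃ M R : ℝ, IsLarge b M R := by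
  obtain ⟨M, hM0, hM⟩ := exists_bound b
  exact ⟨M, 2 * M, hM0, hM, le_rfl⟩

theorem IsLarge.mono {M R R' : ℝ} (h : IsLarge b M R) (hR : R ≤ R') : IsLarge b M R' :=
  ⟨h.1, h.2.1, h.2.2.trans hR⟩

/-- Half of the punctured disc at infinity. -/
def IHalf (M R s : ℝ) : Set ℂ := {z | R < ‖z‖ ∧ (|z.re| ≤ M → 0 < s * z.im)}

omit b in
theorem iHalf_mono {M R R' : ℝ} (h : R ≤ R') (s : ℝ) : IHalf M R' s ⊆ IHalf M R s :=
  fun _ hz => ⟨h.trans_lt hz.1, hz.2⟩

omit b in
theorem isOpen_iHalf (M R s : ℝ) : IsOpen (IHalf M R s) := by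
  have h : IHalf M R s = {z : ℂ | R < ‖z‖} ∩ ({z : ℂ | M < |z.re|} ∪ {z : ℂ | 0 < s * z.im}) := by
    ext z
    simp only [IHalf, mem_ofPred_eq, mem_inter_iff, mem_union, and_congr_right_iff]
    intro _
    constructor
    · intro h
      rcases lt_or_ge M |z.re| with h1 | h1
      · exact Or.inl h1
      · exact Or.inr (h h1)
    · rintro (h | h) h'
      · exact absurd h' (not_le.2 h)
      · exact h
  rw [h]
  refine IsOpen.inter (isOpen_lt continuous_const continuous_norm) (IsOpen.union ?_ ?_)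
  · exact isOpen_lt continuous_const Complex.continuous_re.abs
  · exact isOpen_lt continuous_const (continuous_const.mul Complex.continuous_im)

/-- For `‖z‖ > R ≥ 2 M` and `|re z| ≤ M` we have `|im z| > M`. -/
theorem abs_im_gt {M R : ℝ} (h : IsLarge b M R) {z : ℂ} (hz : R < ‖z‖) (hre : |z.re| ≤ M) :
    M < |z.im| := by
  by_contra hcon
  push Not at hcon
  have h1 := Complex.norm_le_abs_re_add_abs_im z
  have := h.2.2
  linarith

theorem iHalf_subset {M R : ℝ} (h : IsLarge b M R) (s : ℝ) (hs : s * s = 1) :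
    IHalf M R s ⊆ Half b s := by
  rintro z ⟨hz, hz'⟩ k hk
  have h1 : |z.re| ≤ M := by
    rw [hk]
    exact (Complex.abs_re_le_norm _).trans (h.2.1 k).le
  have h2 := hz' h1
  have h3 := abs_im_gt b h hz h1
  have h4 : |z.im| = s * z.im := by
    rw [← abs_of_pos h2, abs_mul, abs_s s hs, one_mul]
  rw [h4] at h3
  have h5 : |s * (b k).im| ≤ ‖b k‖ := by
    rw [abs_mul, abs_s s hs, one_mul]
    exact Complex.abs_im_le_norm _
  exact (le_abs_self _).trans_lt ((h5.trans_lt (h.2.1 k)).trans h3)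

theorem iHalf_union {M R : ℝ} (h : IsLarge b M R) :
    IHalf M R 1 ∪ IHalf M R (-1) = {z | R < ‖z‖} := by
  ext z
  constructor
  · rintro (hz | hz)
    · exact hz.1
    · exact hz.1
  · intro hz
    rcases lt_or_ge M |z.re| with h1 | h1
    · exact Or.inl ⟨hz, fun h2 => absurd h2 (not_le.2 h1)⟩
    · have h2 := abs_im_gt b h hz h1
      rcases lt_trichotomy z.im 0 with h3 | h3 | h3
      · exact Or.inr ⟨hz, fun _ => by linarith⟩
      · rw [h3, abs_zero] at h2
        exact absurd h2 (not_lt.2 h.1.le)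
      · exact Or.inl ⟨hz, fun _ => by linarith⟩

theorem iHalf_inter {M R : ℝ} (h : IsLarge b M R) :
    IHalf M R 1 ∩ IHalf M R (-1) ⊆ Strip b 0 ∪ Strip b (Fin.last n) := by
  rintro z ⟨⟨hz, h1⟩, ⟨-, h2⟩⟩
  have h3 : M < |z.re| := by
    by_contra hcon
    push Not at hcon
    have := h1 hcon
    have := h2 hcon
    linarith
  have hbM : ∀ i, |(b i).re| < M := fun i => (Complex.abs_re_le_norm _).trans_lt (h.2.1 i)
  rcases lt_abs.1 h3 with h4 | h4
  · right
    refine ⟨fun i _ => ?_, fun i hi => absurd hi (not_le.2 (Fin.castSucc_lt_last i))⟩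
    have := (abs_lt.1 (hbM i)).2
    linarith
  · left
    refine ⟨fun i hi => absurd hi (not_lt.2 (Fin.zero_le _)), fun i _ => ?_⟩
    have := (abs_lt.1 (hbM i)).1
    linarith

omit b in
/-- A real number of large absolute value lies in both halves. -/
theorem mem_iHalf_real {M R : ℝ} (x : ℝ) (hx : R < |x|) (hx' : M < |x|) (s : ℝ) :
    (x : ℂ) ∈ IHalf M R s := by
  refine ⟨by simpa using hx, fun h => ?_⟩
  rw [Complex.ofReal_re] at h
  exact absurd h (not_le.2 hx')

theorem inter_strip_zero {M R : ℝ} (h : IsLarge b M R) :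
    (IHalf M R 1 ∩ IHalf M R (-1) ∩ Strip b 0).Nonempty := by
  have hM := h.1
  have hR := h.2.2
  have h1 : |-(R + 1)| = R + 1 := by rw [abs_neg, abs_of_pos (by linarith)]
  refine ⟨((-(R + 1) : ℝ) : ℂ), ⟨mem_iHalf_real _ (by rw [h1]; linarith) (by rw [h1]; linarith) _,
    mem_iHalf_real _ (by rw [h1]; linarith) (by rw [h1]; linarith) _⟩, ?_, ?_⟩
  · exact fun i hi => absurd hi (not_lt.2 (Fin.zero_le _))
  · intro i _
    rw [Complex.ofReal_re]
    have := (abs_lt.1 ((Complex.abs_re_le_norm (b i)).trans_lt (h.2.1 i))).1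
    linarith

theorem inter_strip_last {M R : ℝ} (h : IsLarge b M R) :
    (IHalf M R 1 ∩ IHalf M R (-1) ∩ Strip b (Fin.last n)).Nonempty := by
  have hM := h.1
  have hR := h.2.2
  have h1 : |(R + 1)| = R + 1 := abs_of_pos (by linarith)
  refine ⟨((R + 1 : ℝ) : ℂ), ⟨mem_iHalf_real _ (by rw [h1]; linarith) (by rw [h1]; linarith) _,
    mem_iHalf_real _ (by rw [h1]; linarith) (by rw [h1]; linarith) _⟩, ?_, ?_⟩
  · intro i _
    rw [Complex.ofReal_re]
    have := (abs_lt.1 ((Complex.abs_re_le_norm (b i)).trans_lt (h.2.1 i))).2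
    linarith
  · exact fun i hi => absurd hi (not_le.2 (Fin.castSucc_lt_last i))

omit b in
/-- `{z ∈ H | R < ‖z‖}` is preconnected for `H` convex, if there is a direction `v` in which all
points of `H` of norm `> R` have a positive component and `K v ∈ H` for `K` large. -/
theorem isPreconnected_cone {H : Set ℂ} (hH : Convex ℝ H) {R : ℝ} (v : ℂ)
    (h1 : ∀ z ∈ H, R < ‖z‖ → 0 < v.re * z.re + v.im * z.im)
    (h2 : ∃ K₀ : ℝ, ∀ K : ℝ, K₀ ≤ K → (K : ℂ) * v ∈ H) :
    IsPreconnected {z | z ∈ H ∧ R < ‖z‖} := by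
  -- the convex pieces
  let P : ℂ → Set ℂ := fun z => H ∩ {y | R * ‖z‖ < z.re * y.re + z.im * y.im}
  have hPconv : ∀ z, Convex ℝ (P z) := by
    intro z
    refine hH.inter ?_
    intro x hx y hy p q hp hq hpq
    have hx' : R * ‖z‖ < z.re * x.re + z.im * x.im := hx
    have hy' : R * ‖z‖ < z.re * y.re + z.im * y.im := hy
    change R * ‖z‖ < z.re * (p • x + q • y).re + z.im * (p • x + q • y).im
    have e1 : (p • x + q • y).re = p * x.re + q * y.re := by simp
    have e2 : (p • x + q • y).im = p * x.im + q * y.im := by simp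
    rw [e1, e2]
    have e3 : z.re * (p * x.re + q * y.re) + z.im * (p * x.im + q * y.im) =
      p * (z.re * x.re + z.im * x.im) + q * (z.re * y.re + z.im * y.im) := by ring
    have e4 : R * ‖z‖ = p * (R * ‖z‖) + q * (R * ‖z‖) := by rw [← add_mul, hpq, one_mul]
    rw [e3, e4]
    rcases eq_or_lt_of_le hp with h | h
    · subst h
      have : q = 1 := by linarith
      subst this
      linarith
    · have h5 : p * (R * ‖z‖) < p * (z.re * x.re + z.im * x.im) := mul_lt_mul_of_pos_left hx' h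
      have h6 : q * (R * ‖z‖) ≤ q * (z.re * y.re + z.im * y.im) :=
        mul_le_mul_of_nonneg_left hy'.le hq
      linarith
  have hself : ∀ z ∈ H, R < ‖z‖ → z ∈ P z := by
    intro z hz hR
    refine ⟨hz, ?_⟩
    change R * ‖z‖ < z.re * z.re + z.im * z.im
    have e : z.re * z.re + z.im * z.im = ‖z‖ * ‖z‖ := by
      rw [← Complex.normSq_apply, Complex.normSq_eq_norm_sq, sq]
    rw [e]
    have hz0 : 0 < ‖z‖ := by
      by_contra hcon
      have h0 : ‖z‖ = 0 := le_antisymm (not_lt.1 hcon) (norm_nonneg _)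
      have hz0 : z = 0 := norm_eq_zero.1 h0
      have := h1 z hz hR
      rw [hz0] at this
      simp at this
    exact mul_lt_mul_of_pos_right hR hz0
  have hsub : ∀ z ∈ H, R < ‖z‖ → P z ⊆ {z | z ∈ H ∧ R < ‖z‖} := by
    rintro z hz hR y ⟨hy, hy'⟩
    refine ⟨hy, ?_⟩
    have hy'' : R * ‖z‖ < z.re * y.re + z.im * y.im := hy'
    have hz0 : 0 < ‖z‖ := by
      by_contra hcon
      have h0 : ‖z‖ = 0 := le_antisymm (not_lt.1 hcon) (norm_nonneg _)
      have hz0 : z = 0 := norm_eq_zero.1 h0
      have := h1 z hz hR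
      rw [hz0] at this
      simp at this
    have hcs : z.re * y.re + z.im * y.im ≤ ‖z‖ * ‖y‖ := by
      have e : z.re * y.re + z.im * y.im = (star z * y).re := by
        simp [Complex.mul_re]
      rw [e]
      refine (Complex.re_le_norm _).trans ?_
      rw [norm_mul]
      simp
    have h3 : R * ‖z‖ < ‖y‖ * ‖z‖ := by
      rw [mul_comm ‖y‖]
      exact hy''.trans_le hcs
    exact lt_of_mul_lt_mul_right h3 hz0.le
  obtain ⟨K₀, hK₀⟩ := h2
  -- `K v` is in `P z` for `K` large
  have hfar : ∀ z ∈ H, R < ‖z‖ → ∃ K₁ : ℝ, ∀ K : ℝ, K₁ ≤ K → (K : ℂ) * v ∈ P z := by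
    intro z hz hR
    have hpos := h1 z hz hR
    refine ⟨max K₀ ((R * ‖z‖ + 1) / (v.re * z.re + v.im * z.im)), fun K hK => ⟨hK₀ K
      ((le_max_left _ _).trans hK), ?_⟩⟩
    change R * ‖z‖ < z.re * ((K : ℂ) * v).re + z.im * ((K : ℂ) * v).im
    have e1 : ((K : ℂ) * v).re = K * v.re := by simp
    have e2 : ((K : ℂ) * v).im = K * v.im := by simp
    rw [e1, e2]
    have h4 : (R * ‖z‖ + 1) / (v.re * z.re + v.im * z.im) ≤ K := (le_max_right _ _).trans hK
    rw [div_le_iff₀ hpos] at h4
    nlinarith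
  refine isPreconnected_of_forall_pair fun x hx y hy => ?_
  obtain ⟨K₁, hK₁⟩ := hfar x hx.1 hx.2
  obtain ⟨K₂, hK₂⟩ := hfar y hy.1 hy.2
  refine ⟨P x ∪ P y, union_subset (hsub x hx.1 hx.2) (hsub y hy.1 hy.2), Or.inl
    (hself x hx.1 hx.2), Or.inr (hself y hy.1 hy.2), ?_⟩
  exact IsPreconnected.union' ⟨((max K₁ K₂ : ℝ) : ℂ) * v, hK₁ _ (le_max_left _ _),
    hK₂ _ (le_max_right _ _)⟩ (hPconv x).isPreconnected (hPconv y).isPreconnected

omit b in
theorem isPreconnected_iHalf {M R : ℝ} (hM : 0 < M) (hMR : 2 * M ≤ R) (s : ℝ) (hs : s * s = 1) :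
    IsPreconnected (IHalf M R s) := by
  have hsn : s ≠ 0 := by
    rintro rfl
    simp at hs
  have hmid : IsPreconnected {z : ℂ | z ∈ {z : ℂ | 0 < s * z.im} ∧ R < ‖z‖} := by
    refine isPreconnected_cone ?_ ((s : ℂ) * Complex.I) ?_ ?_
    · intro x hx y hy p q hp hq hpq
      have hx' : 0 < s * x.im := hx
      have hy' : 0 < s * y.im := hy
      change 0 < s * (p • x + q • y).im
      have e2 : (p • x + q • y).im = p * x.im + q * y.im := by simp
      rw [e2]
      have e3 : s * (p * x.im + q * y.im) = p * (s * x.im) + q * (s * y.im) := by ring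
      rw [e3]
      rcases eq_or_lt_of_le hp with h | h
      · subst h
        have : q = 1 := by linarith
        subst this
        linarith
      · have h5 : 0 < p * (s * x.im) := mul_pos h hx'
        have h6 : 0 ≤ q * (s * y.im) := mul_nonneg hq hy'.le
        linarith
    · intro z hz _
      have hz' : 0 < s * z.im := hz
      simpa using hz'
    · refine ⟨1, fun K hK => ?_⟩
      change 0 < s * ((K : ℂ) * ((s : ℂ) * Complex.I)).im
      have e : ((K : ℂ) * ((s : ℂ) * Complex.I)).im = K * s := by simp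
      rw [e]
      have : s * (K * s) = K * (s * s) := by ring
      rw [this, hs]
      linarith
  have hleft : IsPreconnected {z : ℂ | z ∈ {z : ℂ | z.re < -M} ∧ R < ‖z‖} := by
    refine isPreconnected_cone (convex_halfSpace_re_lt _) (-1) ?_ ?_
    · intro z hz _
      have hz' : z.re < -M := hz
      simp only [Complex.neg_re, Complex.one_re, Complex.neg_im, Complex.one_im]
      linarith
    · refine ⟨M + 1, fun K hK => ?_⟩
      change ((K : ℂ) * (-1)).re < -M
      simp
      linarith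
  have hright : IsPreconnected {z : ℂ | z ∈ {z : ℂ | M < z.re} ∧ R < ‖z‖} := by
    refine isPreconnected_cone (convex_halfSpace_re_gt _) 1 ?_ ?_
    · intro z hz _
      have hz' : M < z.re := hz
      simp only [Complex.one_re, Complex.one_im]
      linarith
    · refine ⟨M + 1, fun K hK => ?_⟩
      change M < ((K : ℂ) * 1).re
      simp
      linarith
  have hunion : IHalf M R s = ({z : ℂ | z ∈ {z : ℂ | z.re < -M} ∧ R < ‖z‖} ∪
      {z : ℂ | z ∈ {z : ℂ | 0 < s * z.im} ∧ R < ‖z‖}) ∪
      {z : ℂ | z ∈ {z : ℂ | M < z.re} ∧ R < ‖z‖} := by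
    ext z
    constructor
    · rintro ⟨hz, hz'⟩
      rcases lt_or_ge M |z.re| with h1 | h1
      · rcases lt_abs.1 h1 with h2 | h2
        · exact Or.inr ⟨h2, hz⟩
        · refine Or.inl (Or.inl ⟨?_, hz⟩)
          change z.re < -M
          linarith
      · exact Or.inl (Or.inr ⟨hz' h1, hz⟩)
    · rintro ((⟨h1, hz⟩ | ⟨h1, hz⟩) | ⟨h1, hz⟩)
      · refine ⟨hz, fun h2 => ?_⟩
        have h1' : z.re < -M := h1
        have := (abs_le.1 h2).1
        linarith
      · exact ⟨hz, fun _ => h1⟩
      · refine ⟨hz, fun h2 => ?_⟩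
        have h1' : M < z.re := h1
        have := (abs_le.1 h2).2
        linarith
  rw [hunion]
  have hpt : ∀ x : ℝ, (R < |x|) → R < ‖(⟨x, s⟩ : ℂ)‖ := by
    intro x hx
    exact hx.trans_le (Complex.abs_re_le_norm (⟨x, s⟩ : ℂ))
  have hspos : 0 < s * s := by rw [hs]; exact one_pos
  refine IsPreconnected.union' ?_ (IsPreconnected.union' ?_ hleft hmid) hright
  · refine ⟨⟨R + 1, s⟩, Or.inr ⟨hspos, hpt _ ?_⟩, ⟨?_, hpt _ ?_⟩⟩
    · rw [abs_of_pos (by linarith)]; linarith
    · change M < R + 1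
      linarith
    · rw [abs_of_pos (by linarith)]; linarith
  · refine ⟨⟨-(R + 1), s⟩, ⟨?_, hpt _ ?_⟩, ⟨hspos, hpt _ ?_⟩⟩
    · change -(R + 1) < -M
      linarith
    · rw [abs_neg, abs_of_pos (by linarith)]; linarith
    · rw [abs_neg, abs_of_pos (by linarith)]; linarith

end Groth.Agent.Pi1.H147.Disc
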