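import Mathlib.Topology.Separation.Hausdorff
import Mathlib.Topology.Connected.Basic

/-!
# Points of a fibre and local components

`X` is a Hausdorff space, `fib` a finite subset (the fibre over a point `b`), `V r` a decreasing
family of open sets (the preimages of punctured neighbourhoods of `b`) such that the `V r ∪ fib`
form a basis of neighbourhoods of `fib`, each `V r` being the disjoint union of connected open
subsets `C r o` (`o : O`), compatibly in `r`.  If every point of `fib` has arbitrarily small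
neighbourhoods which stay connected (and nonempty) after removing the point, then `fib` is in
bijection with `O`.
-/

set_option autoImplicit false

open Topology Set

namespace Groth.Agent.Pi1.H147.LocGlob

variable {X : Type*} [TopologicalSpace X] {R O : Type*}

structure Data (fib : Set X) (V : R → Set X) (C : R → O → Set X) : Prop where
  fin : fib.Finite
  ne : Nonempty R
  dir : ∀ r r', ∃ r'', (∀ o, C r'' o ⊆ C r o) ∧ (∀ o, C r'' o ⊆ C r' o)
  small : ∀ N, IsOpen N → fib ⊆ N → ∃ r, V r ⊆ N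
  nhd : ∀ x ∈ fib, ∀ r, ∃ N, IsOpen N ∧ x ∈ N ∧ N \ {x} ⊆ V r
  conn : ∀ x ∈ fib, ∀ N, IsOpen N → x ∈ N → ∃ N', IsOpen N' ∧ x ∈ N' ∧ N' ⊆ N ∧
    IsPreconnected (N' \ {x}) ∧ (N' \ {x}).Nonempty
  eq : ∀ r, V r = ⋃ o, C r o
  disj : ∀ r o o' x, x ∈ C r o → x ∈ C r o' → o = o'
  isOpen : ∀ r o, IsOpen (C r o)
  isConn : ∀ r o, IsPreconnected (C r o)
  nonempty : ∀ r o, (C r o).Nonempty
  notMem : ∀ x ∈ fib, ∀ r, x ∉ V r

variable {fib : Set X} {V : R → Set X} {C : R → O → Set X}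

/-- A preconnected nonempty subset of `V r` lies in exactly one `C r o`. -/
theorem Data.exists_comp (h : Data fib V C) (r : R) {S : Set X} (hS : IsPreconnected S)
    (hne : S.Nonempty) (hSV : S ⊆ V r) : ∃ o, S ⊆ C r o := by
  obtain ⟨x, hx⟩ := hne
  have hx' := hSV hx
  rw [h.eq] at hx'
  obtain ⟨o, ho⟩ := mem_iUnion.1 hx'
  refine ⟨o, ?_⟩
  refine hS.subset_left_of_subset_union (h.isOpen r o)
    (isOpen_iUnion fun o' : {o' // o' ≠ o} => h.isOpen r o'.1) ?_ ?_ ⟨x, hx, ho⟩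
  · rw [Set.disjoint_left]
    intro y hy hy'
    obtain ⟨o', ho'⟩ := mem_iUnion.1 hy'
    exact o'.2 (h.disj r o'.1 o y ho' hy)
  · intro y hy
    have hy' := hSV hy
    rw [h.eq] at hy'
    obtain ⟨o', ho'⟩ := mem_iUnion.1 hy'
    by_cases hoo : o' = o
    · exact Or.inl (hoo ▸ ho')
    · exact Or.inr (mem_iUnion.2 ⟨⟨o', hoo⟩, ho'⟩)

theorem Data.exists_o (h : Data fib V C) (x : X) (hx : x ∈ fib) :
    ∃ o, ∀ r, ∃ N, IsOpen N ∧ x ∈ N ∧ N \ {x} ⊆ C r o := by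
  -- for one `r`
  have h1 : ∀ r, ∃ o N, IsOpen N ∧ x ∈ N ∧ N \ {x} ⊆ C r o := by
    intro r
    obtain ⟨N, hN, hxN, hNV⟩ := h.nhd x hx r
    obtain ⟨N', hN', hxN', hN'N, hc, hne⟩ := h.conn x hx N hN hxN
    obtain ⟨o, ho⟩ := h.exists_comp r hc hne
      ((sdiff_subset_sdiff_left hN'N).trans hNV)
    exact ⟨o, N', hN', hxN', ho⟩
  -- independence
  have h2 : ∀ r o o' N N', IsOpen N → x ∈ N → N \ {x} ⊆ C r o → IsOpen N' → x ∈ N' →
      N' \ {x} ⊆ C r o' → o = o' := by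
    intro r o o' N N' hN hxN hNo hN' hxN' hN'o
    obtain ⟨M, -, -, hMN, -, y, hy, hyx⟩ := h.conn x hx (N ∩ N') (hN.inter hN') ⟨hxN, hxN'⟩
    exact h.disj r o o' y (hNo ⟨(hMN hy).1, hyx⟩) (hN'o ⟨(hMN hy).2, hyx⟩)
  obtain ⟨r₀⟩ := h.ne
  obtain ⟨o, N₀, hN₀, hxN₀, hNo₀⟩ := h1 r₀
  refine ⟨o, fun r => ?_⟩
  obtain ⟨r'', hr1, hr2⟩ := h.dir r r₀
  obtain ⟨o'', N'', hN'', hxN'', hNo''⟩ := h1 r''
  have h3 : o'' = o := h2 r₀ o'' o N'' N₀ hN'' hxN'' (hNo''.trans (hr2 o'')) hN₀ hxN₀ hNo₀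
  subst h3
  exact ⟨N'', hN'', hxN'', hNo''.trans (hr1 _)⟩

/-- The component attached to a point of the fibre. -/
noncomputable def Data.φ (h : Data fib V C) (x : fib) : O := (h.exists_o x.1 x.2).choose

theorem Data.φ_spec (h : Data fib V C) (x : fib) (r : R) :
    ∃ N, IsOpen N ∧ x.1 ∈ N ∧ N \ {x.1} ⊆ C r (h.φ x) := (h.exists_o x.1 x.2).choose_spec r

theorem Data.mem_closure (h : Data fib V C) (x : fib) (r : R) : x.1 ∈ closure (C r (h.φ x)) := by
  obtain ⟨N, hN, hxN, hNC⟩ := h.φ_spec x r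
  rw [mem_closure_iff]
  intro M hM hxM
  obtain ⟨N', -, -, hN', -, y, hy, hyx⟩ := h.conn x.1 x.2 (M ∩ N) (hM.inter hN) ⟨hxM, hxN⟩
  exact ⟨y, (hN' hy).1, hNC ⟨(hN' hy).2, hyx⟩⟩

theorem Data.eq_of_mem_closure (h : Data fib V C) (x : fib) (r : R) {o : O}
    (ho : x.1 ∈ closure (C r o)) : o = h.φ x := by
  obtain ⟨N, hN, hxN, hNC⟩ := h.φ_spec x r
  obtain ⟨y, hyN, hyC⟩ := (mem_closure_iff.1 ho) N hN hxN
  refine h.disj r o _ y hyC (hNC ⟨hyN, ?_⟩)
  rintro rfl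
  exact h.notMem _ x.2 r ((h.eq r).symm ▸ mem_iUnion.2 ⟨o, hyC⟩)

theorem Data.injective [T2Space X] (h : Data fib V C) : Function.Injective h.φ := by
  intro x y hxy
  by_contra hne
  obtain ⟨U, hU, hUd⟩ := h.fin.t2_separation
  obtain ⟨r, hr⟩ := h.small (⋃ z ∈ fib, U z) (isOpen_biUnion fun z _ => (hU z).2)
    (fun z hz => mem_iUnion₂.2 ⟨z, hz, (hU z).1⟩)
  have hCU : C r (h.φ x) ⊆ ⋃ z ∈ fib, U z :=
    (subset_iUnion (C r) (h.φ x)).trans ((h.eq r).symm.subset.trans hr)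
  have h1 : C r (h.φ x) ⊆ U x.1 := by
    refine (h.isConn r (h.φ x)).subset_left_of_subset_union (hU x.1).2
      (isOpen_biUnion (s := fib \ {x.1}) fun z _ => (hU z).2) ?_ ?_ ?_
    · rw [Set.disjoint_left]
      intro a ha ha'
      obtain ⟨z, hz, haz⟩ := mem_iUnion₂.1 ha'
      exact (Set.disjoint_left.1 (hUd x.2 hz.1 (fun h => hz.2 h.symm))) ha haz
    · intro a ha
      obtain ⟨z, hz, haz⟩ := mem_iUnion₂.1 (hCU ha)
      by_cases hzx : z = x.1
      · exact Or.inl (hzx ▸ haz)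
      · exact Or.inr (mem_iUnion₂.2 ⟨z, ⟨hz, hzx⟩, haz⟩)
    · obtain ⟨a, ha1, ha2⟩ := (mem_closure_iff.1 (h.mem_closure x r)) (U x.1) (hU x.1).2 (hU x.1).1
      exact ⟨a, ha2, ha1⟩
  obtain ⟨a, ha1, ha2⟩ := (mem_closure_iff.1 (h.mem_closure y r)) (U y.1) (hU y.1).2 (hU y.1).1
  rw [← hxy] at ha2
  exact (Set.disjoint_left.1 (hUd x.2 y.2 fun h => hne (Subtype.ext h))) (h1 ha2) ha1

theorem Data.surjective (h : Data fib V C) : Function.Surjective h.φ := by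
  intro o
  by_contra hcon
  push Not at hcon
  obtain ⟨r₀⟩ := h.ne
  choose N hN hxN hNC using fun x : fib => h.φ_spec x r₀
  obtain ⟨r, hr⟩ := h.small (⋃ x : fib, N x) (isOpen_iUnion hN)
    (fun z hz => mem_iUnion.2 ⟨⟨z, hz⟩, hxN ⟨z, hz⟩⟩)
  obtain ⟨r'', hr1, hr2⟩ := h.dir r r₀
  obtain ⟨a, ha⟩ := h.nonempty r'' o
  have ha1 : a ∈ V r := (h.eq r).symm ▸ mem_iUnion.2 ⟨o, hr1 o ha⟩
  obtain ⟨x, hx⟩ := mem_iUnion.1 (hr ha1)
  have hax : a ≠ x.1 := fun hax => h.notMem x.1 x.2 r (hax ▸ ha1)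
  exact hcon x (h.disj r₀ _ _ a (hNC x ⟨hx, hax⟩) (hr2 o ha))

/-- The bijection between the fibre and the set of local components. -/
noncomputable def Data.equiv [T2Space X] (h : Data fib V C) : fib ≃ O :=
  Equiv.ofBijective h.φ ⟨h.injective, h.surjective⟩

theorem Data.equiv_apply [T2Space X] (h : Data fib V C) (x : fib) : h.equiv x = h.φ x := rfl

theorem Data.equiv_eq_iff [T2Space X] (h : Data fib V C) (x : fib) (o : O) (r : R) :
    h.equiv x = o ↔ x.1 ∈ closure (C r o) := by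
  constructor
  · rintro rfl
    exact h.mem_closure x r
  · intro ho
    exact (h.eq_of_mem_closure x r ho).symm

end Groth.Agent.Pi1.H147.LocGlob
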