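import Groth.Agent.Pi1.H147.Mono
import Groth.Agent.Pi1.H147.LocGlob
import Mathlib.Topology.OpenPartialHomeomorph.Basic
import Mathlib.Topology.Maps.Proper.Basic

/-!
# Points over a puncture and orbits of the monodromy

`p : E → ℂ` is a covering over the plane minus the points `b i`; `q : X → ℂ` is a closed
continuous map with finite fibre over `b i`, `X` Hausdorff and locally homeomorphic to `ℂ` at the
points over `b i`; over a punctured neighbourhood of `b i` the spaces `E` and `X` agree.  Then the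
points of `X` over `b i` are in natural bijection with the orbits of the monodromy around `b i`.
The same at infinity.
-/

set_option autoImplicit false

open Topology Set

namespace Groth.Agent.Pi1.H147.Fib

open Groth.Agent.Pi1.H147.Mono Groth.Agent.Pi1.H147.LocGlob
open Groth.Agent.Pi1.H147.Slit Groth.Agent.Pi1.H147.Disc

/-! ### connectedness of punctured neighbourhoods -/

theorem isPreconnected_punctured_ball (c : ℂ) {r : ℝ} (hr : 0 < r) :
    IsPreconnected (Metric.ball c r \ {c}) := by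
  have hb : StrictMono fun i : Fin 1 => ((fun _ => c : Fin 1 → ℂ) i).re := by
    intro i j hij
    exact absurd hij (by simp [Subsingleton.elim i j])
  have hs : IsSmall (fun _ => c : Fin 1 → ℂ) 0 r :=
    ⟨hr, fun k hk => absurd (Subsingleton.elim k 0) hk⟩
  have h := dHalf_union (fun _ => c : Fin 1 → ℂ) (i := 0) (r := r)
  rw [← h]
  obtain ⟨x, hx, -⟩ := inter_strip_left _ hs hb
  exact IsPreconnected.union x hx.1 hx.2
    (isPreconnected_dHalf _ 0 hr 1 (by norm_num)) (isPreconnected_dHalf _ 0 hr (-1) (by norm_num))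

theorem punctured_ball_nonempty (c : ℂ) {r : ℝ} (hr : 0 < r) : (Metric.ball c r \ {c}).Nonempty := by
  refine ⟨c + ((r / 2 : ℝ) : ℂ), ?_, ?_⟩
  · rw [Metric.mem_ball, Complex.dist_eq]
    simp only [add_sub_cancel_left, Complex.norm_real, Real.norm_eq_abs]
    rw [abs_of_pos (half_pos hr)]
    linarith
  · intro h
    have h1 : c + ((r / 2 : ℝ) : ℂ) = c := h
    have h2 : ((r / 2 : ℝ) : ℂ) = 0 := by simpa using h1
    have h3 : r / 2 = 0 := by exact_mod_cast h2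
    linarith

/-- A point with a chart to `ℂ` has small neighbourhoods which stay connected after removing the
point. -/
theorem conn_of_chart {X : Type*} [TopologicalSpace X] (ψ : OpenPartialHomeomorph X ℂ) {x : X}
    (hx : x ∈ ψ.source) {N : Set X} (hN : IsOpen N) (hxN : x ∈ N) :
    ∃ N', IsOpen N' ∧ x ∈ N' ∧ N' ⊆ N ∧ IsPreconnected (N' \ {x}) ∧ (N' \ {x}).Nonempty := by
  have h1 : IsOpen (ψ.symm.source ∩ ψ.symm ⁻¹' N) := ψ.symm.isOpen_inter_preimage hN
  have h2 : ψ x ∈ ψ.symm.source ∩ ψ.symm ⁻¹' N := by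
    refine ⟨ψ.map_source hx, ?_⟩
    rw [mem_preimage, ψ.left_inv hx]
    exact hxN
  obtain ⟨r, hr, hball⟩ := Metric.isOpen_iff.1 h1 _ h2
  have h3 : Metric.ball (ψ x) r ⊆ ψ.target := fun z hz => (hball hz).1
  refine ⟨ψ.source ∩ ψ ⁻¹' Metric.ball (ψ x) r, ψ.isOpen_inter_preimage Metric.isOpen_ball,
    ⟨hx, Metric.mem_ball_self hr⟩, ?_, ?_, ?_⟩
  · rintro y ⟨hy, hy'⟩
    have := (hball hy').2
    rwa [mem_preimage, ψ.left_inv hy] at this
  · have h4 : (ψ.source ∩ ψ ⁻¹' Metric.ball (ψ x) r) \ {x} =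
        ψ.symm '' (Metric.ball (ψ x) r \ {ψ x}) := by
      ext y
      constructor
      · rintro ⟨⟨hy, hy'⟩, hyx⟩
        refine ⟨ψ y, ⟨hy', fun h => hyx ?_⟩, ψ.left_inv hy⟩
        exact ψ.injOn hy hx h
      · rintro ⟨z, ⟨hz, hz'⟩, rfl⟩
        refine ⟨⟨ψ.map_target (h3 hz), ?_⟩, fun h => hz' ?_⟩
        · rw [mem_preimage, ψ.right_inv (h3 hz)]
          exact hz
        · have h5 : ψ.symm z = x := h
          rw [mem_singleton_iff, ← h5, ψ.right_inv (h3 hz)]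
    rw [h4]
    exact (isPreconnected_punctured_ball _ hr).image _
      (ψ.continuousOn_symm.mono (sdiff_subset.trans h3))
  · obtain ⟨z, hz, hz'⟩ := punctured_ball_nonempty (ψ x) hr
    refine ⟨ψ.symm z, ⟨ψ.map_target (h3 hz), ?_⟩, fun h => hz' ?_⟩
    · rw [mem_preimage, ψ.right_inv (h3 hz)]
      exact hz
    · have h5 : ψ.symm z = x := h
      rw [mem_singleton_iff, ← h5, ψ.right_inv (h3 hz)]

/-! ### families and open embeddings -/

section family

variable {E E₀ X : Type*} [TopologicalSpace E] [TopologicalSpace E₀] [TopologicalSpace X]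
  {T : Set E} {O : Type*} {C : O → Set E}

theorem _root_.Groth.Agent.Pi1.H147.Mono.IsFamily.preimage (h : IsFamily T C) {κ : E₀ → E}
    (hκ : IsOpenEmbedding κ) (hT : T ⊆ range κ) :
    IsFamily (κ ⁻¹' T) (fun o => κ ⁻¹' C o) where
  iUnion := by rw [← h.iUnion, preimage_iUnion]
  disj o o' x hx hx' := h.disj o o' (κ x) hx hx'
  isOpen o := (h.isOpen o).preimage hκ.continuous
  isPreconnected o := (h.isPreconnected o).preimage_of_isOpenMap hκ.injective hκ.isOpenMap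
    ((h.subset o).trans hT)
  nonempty o := by
    obtain ⟨x, hx⟩ := h.nonempty o
    obtain ⟨y, rfl⟩ := hT (h.subset o hx)
    exact ⟨y, hx⟩

theorem _root_.Groth.Agent.Pi1.H147.Mono.IsFamily.image (h : IsFamily T C) {ι : E → X}
    (hι : IsOpenEmbedding ι) : IsFamily (ι '' T) (fun o => ι '' C o) where
  iUnion := by rw [← h.iUnion, image_iUnion]
  disj o o' x hx hx' := by
    obtain ⟨y, hy, rfl⟩ := hx
    obtain ⟨y', hy', hyy⟩ := hx'
    obtain rfl := hι.injective hyy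
    exact h.disj o o' y' hy hy'
  isOpen o := hι.isOpenMap _ (h.isOpen o)
  isPreconnected o := (h.isPreconnected o).image _ hι.continuous.continuousOn
  nonempty o := (h.nonempty o).image _

end family

/-! ### the comparison at an end -/

section ends

variable {E E₀ X : Type*} [TopologicalSpace E] [TopologicalSpace E₀] [TopologicalSpace X]
  {R O : Type*} {T : R → Set E} {C : R → O → Set E}

/-- The data of an end: `T r ⊆ E` (`r : R`) corresponds to `q ⁻¹' (B r \ {c}) ⊆ X`, where the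
`B r` are a basis of neighbourhoods of `c`. -/
theorem data_end (hF : ∀ r, IsFamily (T r) (C r)) (hne : Nonempty R)
    (dir : ∀ r r', ∃ r'', (∀ o, C r'' o ⊆ C r o) ∧ (∀ o, C r'' o ⊆ C r' o))
    {κ : E₀ → E} {ι : E₀ → X} (hκ : IsOpenEmbedding κ) (hι : IsOpenEmbedding ι)
    {q : X → ℂ} {c : ℂ} {B : R → Set ℂ}
    (hTκ : ∀ r, T r ⊆ range κ) (hTι : ∀ r e, κ e ∈ T r ↔ q (ι e) ∈ B r \ {c})
    (hBι : ∀ r, q ⁻¹' (B r \ {c}) ⊆ range ι) (hBo : ∀ r, IsOpen (B r)) (hBc : ∀ r, c ∈ B r)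
    (hBb : ∀ U ∈ 𝓝 c, ∃ r, B r ⊆ U) [T1Space X] (hq : Continuous q) (hqc : IsClosedMap q)
    (hfin : (q ⁻¹' {c}).Finite)
    (hchart : ∀ x, q x = c → ∃ ψ : OpenPartialHomeomorph X ℂ, x ∈ ψ.source) :
    Data (q ⁻¹' {c}) (fun r => q ⁻¹' (B r \ {c})) (fun r o => ι '' (κ ⁻¹' C r o)) := by
  have hV : ∀ r, q ⁻¹' (B r \ {c}) = ι '' (κ ⁻¹' T r) := by
    intro r
    ext x
    constructor
    · intro hx
      obtain ⟨e, rfl⟩ := hBι r hx
      exact ⟨e, (hTι r e).2 hx, rfl⟩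
    · rintro ⟨e, he, rfl⟩
      exact (hTι r e).1 he
  have hF' : ∀ r, IsFamily (q ⁻¹' (B r \ {c})) (fun o => ι '' (κ ⁻¹' C r o)) := by
    intro r
    rw [hV]
    exact ((hF r).preimage hκ (hTκ r)).image hι
  exact
    { fin := hfin
      ne := hne
      dir := fun r r' => by
        obtain ⟨r'', h1, h2⟩ := dir r r'
        exact ⟨r'', fun o => image_mono (preimage_mono (h1 o)),
          fun o => image_mono (preimage_mono (h2 o))⟩
      small := by
        intro N hN hfN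
        have h1 : (q '' Nᶜ)ᶜ ∈ 𝓝 c := by
          refine (hqc _ hN.isClosed_compl).isOpen_compl.mem_nhds ?_
          rintro ⟨x, hx, hxc⟩
          exact hx (hfN hxc)
        obtain ⟨r, hr⟩ := hBb _ h1
        refine ⟨r, fun x hx => ?_⟩
        by_contra hxN
        exact hr hx.1 ⟨x, hxN, rfl⟩
      nhd := by
        intro x hx r
        refine ⟨q ⁻¹' B r ∩ (q ⁻¹' {c} \ {x})ᶜ, ((hBo r).preimage hq).inter
          (hfin.subset sdiff_subset).isClosed.isOpen_compl, ⟨?_, fun h => h.2 rfl⟩, ?_⟩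
        · have hx' : q x = c := hx
          rw [mem_preimage, hx']
          exact hBc r
        · rintro y ⟨⟨hy1, hy2⟩, hy3⟩
          exact ⟨hy1, fun h => hy2 ⟨h, hy3⟩⟩
      conn := by
        intro x hx N hN hxN
        obtain ⟨ψ, hψ⟩ := hchart x hx
        exact conn_of_chart ψ hψ hN hxN
      eq := fun r => (hF' r).iUnion.symm
      disj := fun r => (hF' r).disj
      isOpen := fun r => (hF' r).isOpen
      isConn := fun r => (hF' r).isPreconnected
      nonempty := fun r => (hF' r).nonempty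
      notMem := fun x hx r hx' => hx'.2 hx }

end ends

/-! ### naturality of the bijection -/

theorem data_map {X X' : Type*} [TopologicalSpace X] [TopologicalSpace X'] {R R' O O' : Type*}
    {fib : Set X} {fib' : Set X'} {V : R → Set X} {V' : R' → Set X'} {C : R → O → Set X}
    {C' : R' → O' → Set X'} (h : Data fib V C) (h' : Data fib' V' C') (Φ : X → X')
    (hΦ : ∀ x ∈ fib, ContinuousAt Φ x) (hfib : ∀ x ∈ fib, Φ x ∈ fib') (f : O → O')
    (hC : ∃ r r', ∀ o, ∀ x ∈ C r o, Φ x ∈ C' r' (f o)) (x : fib) :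
    h'.φ ⟨Φ x.1, hfib x.1 x.2⟩ = f (h.φ x) := by
  obtain ⟨r, r', hrr'⟩ := hC
  refine (h'.eq_of_mem_closure ⟨Φ x.1, hfib x.1 x.2⟩ r' ?_).symm
  have h1 := h.mem_closure x r
  have h2 : MapsTo Φ (C r (h.φ x)) (C' r' (f (h.φ x))) := fun y hy => hrr' _ y hy
  exact (hΦ x.1 x.2).continuousWithinAt.mem_closure h1 h2

/-! ### finite punctures -/

section finite

variable {n : ℕ} {b : Fin n → ℂ} (hb : StrictMono fun i => (b i).re)
  {E E₀ X : Type*} [TopologicalSpace E] [TopologicalSpace E₀] [TopologicalSpace X]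
  {p : E → ℂ} (hp : IsCoveringMapOn p (Pl b)) (i : Fin n)

theorem ball_sub_pl {r : ℝ} (hr : IsSmall b i r) : Metric.ball (b i) r \ {b i} ⊆ Pl b := by
  rintro z ⟨hz, hz'⟩ k hk
  have h : k = i := hr.ne b hz (by rw [hk])
  subst h
  exact hz' hk

/-- Hypotheses for the comparison at `b i`: `q : X → ℂ` is closed with finite fibre over `b i`,
`X` is locally `ℂ` at the points over `b i`, and `E`, `X` agree over a punctured neighbourhood
of `b i` (through a third space `E₀`, for instance `E₀ = E`). -/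
structure FinHyp (b : Fin n → ℂ) (i : Fin n) (p : E → ℂ) (q : X → ℂ) (κ : E₀ → E) (ι : E₀ → X) :
    Prop where
  t2 : T2Space X
  hκ : IsOpenEmbedding κ
  hι : IsOpenEmbedding ι
  comm : ∀ e, q (ι e) = p (κ e)
  rangeκ : ∀ e, p e ∈ Pl b → e ∈ range κ
  rangeι : ∀ x, q x ∈ Pl b → x ∈ range ι
  cont : Continuous q
  closed : IsClosedMap q
  fin : (q ⁻¹' {b i}).Finite
  chart : ∀ x, q x = b i → ∃ ψ : OpenPartialHomeomorph X ℂ, x ∈ ψ.source

variable {q : X → ℂ} {κ : E₀ → E} {ι : E₀ → X}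

theorem FinHyp.data (h : FinHyp b i p q κ ι) :
    Data (q ⁻¹' {b i}) (fun r : {r // IsSmall b i r} => q ⁻¹' (Metric.ball (b i) r.1 \ {b i}))
      (fun (r : {r // IsSmall b i r}) (o : Orb (mon hb hp i)) =>
        ι '' (κ ⁻¹' locComp hb hp i r.1 o)) := by
  have := h.t2
  obtain ⟨r₀, hr₀⟩ := exists_isSmall b hb i
  refine data_end (R := {r // IsSmall b i r}) (fun r => isFamily_locComp hb hp i r.2) ⟨⟨r₀, hr₀⟩⟩
    ?_ h.hκ h.hι ?_ ?_ ?_ (fun r => Metric.isOpen_ball) (fun r => Metric.mem_ball_self r.2.1)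
    ?_ h.cont h.closed h.fin h.chart
  · rintro ⟨r, hr⟩ ⟨r', hr'⟩
    refine ⟨⟨min r r', hr.mono b (lt_min hr.1 hr'.1) (min_le_left _ _)⟩, fun o => ?_, fun o => ?_⟩
    · exact locComp_mono hb hp i (min_le_left _ _) o
    · exact locComp_mono hb hp i (min_le_right _ _) o
  · intro r e he
    exact h.rangeκ e (ball_sub_pl i r.2 he)
  · intro r e
    rw [h.comm]
    exact Iff.rfl
  · intro r x hx
    exact h.rangeι x (ball_sub_pl i r.2 hx)
  · intro U hU
    obtain ⟨ε, hε, hεU⟩ := Metric.mem_nhds_iff.1 hU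
    refine ⟨⟨min r₀ ε, hr₀.mono b (lt_min hr₀.1 hε) (min_le_left _ _)⟩, ?_⟩
    exact (Metric.ball_subset_ball (min_le_right _ _)).trans hεU

/-- The bijection between the points over `b i` and the orbits of the monodromy around `b i`. -/
noncomputable def FinHyp.equiv (h : FinHyp b i p q κ ι) : q ⁻¹' {b i} ≃ Orb (mon hb hp i) :=
  have := h.t2
  (h.data hb hp i).equiv

theorem FinHyp.equiv_eq_iff (h : FinHyp b i p q κ ι) (x : q ⁻¹' {b i}) (o : Orb (mon hb hp i))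
    {r : ℝ} (hr : IsSmall b i r) :
    h.equiv hb hp i x = o ↔ x.1 ∈ closure (ι '' (κ ⁻¹' locComp hb hp i r o)) :=
  have := h.t2
  (h.data hb hp i).equiv_eq_iff x o ⟨r, hr⟩

variable {E' E₀' X' : Type*} [TopologicalSpace E'] [TopologicalSpace E₀'] [TopologicalSpace X']
  {p' : E' → ℂ} (hp' : IsCoveringMapOn p' (Pl b)) {q' : X' → ℂ} {κ' : E₀' → E'} {ι' : E₀' → X'}

/-- Naturality of the bijection. -/
theorem FinHyp.equiv_map (h : FinHyp b i p q κ ι) (h' : FinHyp b i p' q' κ' ι')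
    (φ : E → E') (hφ : ContinuousOn φ (p ⁻¹' (Pl b)))
    (hφp : ∀ e, p e ∈ Pl b → p' (φ e) = p e) (φ₀ : E₀ → E₀')
    (hφκ : ∀ e, p (κ e) ∈ Pl b → κ' (φ₀ e) = φ (κ e))
    (Φ : X → X') (hΦ : ∀ x, q x = b i → ContinuousAt Φ x)
    (hφι : ∀ e, p (κ e) ∈ Pl b → ι' (φ₀ e) = Φ (ι e)) (hΦq : ∀ x, q x = b i → q' (Φ x) = b i)
    (x : q ⁻¹' {b i}) :
    h'.equiv hb hp' i ⟨Φ x.1, hΦq x.1 x.2⟩ =
      Orb.map (fmap hb φ hφp) (fmap_mon hb hp hp' φ hφ hφp i) (h.equiv hb hp i x) := by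
  obtain ⟨r₀, hr₀⟩ := exists_isSmall b hb i
  refine data_map (h.data hb hp i) (h'.data hb hp' i) Φ hΦ hΦq
    (Orb.map (fmap hb φ hφp) (fmap_mon hb hp hp' φ hφ hφp i)) ?_ x
  refine ⟨⟨r₀, hr₀⟩, ⟨r₀, hr₀⟩, ?_⟩
  rintro o _ ⟨e, he, rfl⟩
  have h1 : p (κ e) ∈ Pl b := ball_sub_pl i hr₀ ((isFamily_locComp hb hp i hr₀).subset o he)
  refine ⟨φ₀ e, ?_, hφι e h1⟩
  rw [mem_preimage, hφκ e h1]
  exact map_locComp hb hp hp' i φ hφ hφp r₀ o he

end finite

/-! ### infinity -/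

section infinity

variable {n : ℕ} {b : Fin n → ℂ} (hb : StrictMono fun i => (b i).re)
  {E E₀ X : Type*} [TopologicalSpace E] [TopologicalSpace E₀] [TopologicalSpace X]
  {p : E → ℂ} (hp : IsCoveringMapOn p (Pl b))

theorem bd_pos (b : Fin n → ℂ) : 0 < bd b := (exists_bound b).choose_spec.1

/-- Hypotheses for the comparison at infinity: `q : X → ℂ` is closed with finite fibre over `0`,
`X` is locally `ℂ` at the points over `0`, and `E` near infinity, `X` over a punctured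
neighbourhood of `0` agree, `q` corresponding to `1 / p`, through a third space `E₀`. -/
structure InfHyp (b : Fin n → ℂ) (p : E → ℂ) (q : X → ℂ) (κ : E₀ → E) (ι : E₀ → X) :
    Prop where
  t2 : T2Space X
  hκ : IsOpenEmbedding κ
  hι : IsOpenEmbedding ι
  comm : ∀ e, q (ι e) * p (κ e) = 1
  rangeκ : ∀ e, p e ∈ Pl b → p e ≠ 0 → e ∈ range κ
  rangeι : ∀ x, q x ≠ 0 → (q x)⁻¹ ∈ Pl b → x ∈ range ι
  cont : Continuous q
  closed : IsClosedMap q
  fin : (q ⁻¹' {0}).Finite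
  chart : ∀ x, q x = 0 → ∃ ψ : OpenPartialHomeomorph X ℂ, x ∈ ψ.source

theorem norm_sub_pl {R : ℝ} (hR : 2 * bd b ≤ R) {z : ℂ} (hz : R < ‖z‖) : z ∈ Pl b := by
  intro k hk
  have h1 := (exists_bound b).choose_spec.2 k
  have h2 := bd_pos b
  have h3 : ‖b k‖ < bd b := h1
  rw [hk] at hz
  linarith

variable {q : X → ℂ} {κ : E₀ → E} {ι : E₀ → X}

theorem InfHyp.data (h : InfHyp b p q κ ι) :
    Data (q ⁻¹' {0}) (fun R : {R // 2 * bd b ≤ R} => q ⁻¹' (Metric.ball 0 (R.1)⁻¹ \ {0}))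
      (fun (R : {R // 2 * bd b ≤ R}) (o : Orb (monInf hb hp)) =>
        ι '' (κ ⁻¹' infComp hb hp R.1 o)) := by
  have := h.t2
  have hbd := bd_pos b
  refine data_end (R := {R // 2 * bd b ≤ R}) (fun R => isFamily_infComp hb hp R.2)
    ⟨⟨2 * bd b, le_rfl⟩⟩ ?_ h.hκ h.hι ?_ ?_ ?_ (fun r => Metric.isOpen_ball)
    (fun R => Metric.mem_ball_self (inv_pos.2 (by linarith [R.2]))) ?_ h.cont h.closed h.fin h.chart
  · rintro ⟨r, hr⟩ ⟨r', hr'⟩
    refine ⟨⟨max r r', hr.trans (le_max_left _ _)⟩, fun o => ?_, fun o => ?_⟩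
    · exact infComp_mono hb hp (le_max_left _ _) o
    · exact infComp_mono hb hp (le_max_right _ _) o
  · intro R e he
    refine h.rangeκ e (norm_sub_pl R.2 he) ?_
    have he' : R.1 < ‖p e‖ := he
    have h0 : 0 < ‖p e‖ := by linarith [R.2]
    exact norm_pos_iff.1 h0
  · rintro ⟨R, hR⟩ e
    have hR0 : 0 < R := by linarith
    have hc := h.comm e
    have hp0 : p (κ e) ≠ 0 := right_ne_zero_of_mul_eq_one hc
    have hq0 : q (ι e) ≠ 0 := left_ne_zero_of_mul_eq_one hc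
    have hq : q (ι e) = (p (κ e))⁻¹ := eq_inv_of_mul_eq_one_left hc
    change R < ‖p (κ e)‖ ↔ _
    rw [hq]
    constructor
    · intro hlt
      refine ⟨?_, inv_ne_zero hp0⟩
      rw [mem_ball_zero_iff, norm_inv]
      exact (inv_lt_inv₀ (norm_pos_iff.2 hp0) hR0).2 hlt
    · rintro ⟨hlt, -⟩
      rw [mem_ball_zero_iff, norm_inv] at hlt
      exact (inv_lt_inv₀ (norm_pos_iff.2 hp0) hR0).1 hlt
  · rintro ⟨R, hR⟩ x ⟨hx, hx'⟩
    have hR0 : 0 < R := by linarith
    have hq0 : q x ≠ 0 := hx'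
    refine h.rangeι x hq0 (norm_sub_pl hR ?_)
    rw [mem_ball_zero_iff] at hx
    rw [norm_inv]
    exact (lt_inv_comm₀ hR0 (norm_pos_iff.2 hq0)).2 hx
  · intro U hU
    obtain ⟨ε, hε, hεU⟩ := Metric.mem_nhds_iff.1 hU
    refine ⟨⟨max (2 * bd b) ε⁻¹, le_max_left _ _⟩, ?_⟩
    refine (Metric.ball_subset_ball ?_).trans hεU
    have h1 : ε⁻¹ ≤ max (2 * bd b) ε⁻¹ := le_max_right _ _
    exact (inv_le_comm₀ (lt_of_lt_of_le (inv_pos.2 hε) h1) hε).2 h1

/-- The bijection between the points over infinity and the orbits of the monodromy around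
infinity. -/
noncomputable def InfHyp.equiv (h : InfHyp b p q κ ι) : q ⁻¹' {0} ≃ Orb (monInf hb hp) :=
  have := h.t2
  (h.data hb hp).equiv

theorem InfHyp.equiv_eq_iff (h : InfHyp b p q κ ι) (x : q ⁻¹' {0}) (o : Orb (monInf hb hp))
    {R : ℝ} (hR : 2 * bd b ≤ R) :
    h.equiv hb hp x = o ↔ x.1 ∈ closure (ι '' (κ ⁻¹' infComp hb hp R o)) :=
  have := h.t2
  (h.data hb hp).equiv_eq_iff x o ⟨R, hR⟩

variable {E' E₀' X' : Type*} [TopologicalSpace E'] [TopologicalSpace E₀'] [TopologicalSpace X']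
  {p' : E' → ℂ} (hp' : IsCoveringMapOn p' (Pl b)) {q' : X' → ℂ} {κ' : E₀' → E'} {ι' : E₀' → X'}

/-- Naturality of the bijection. -/
theorem InfHyp.equiv_map (h : InfHyp b p q κ ι) (h' : InfHyp b p' q' κ' ι')
    (φ : E → E') (hφ : ContinuousOn φ (p ⁻¹' (Pl b)))
    (hφp : ∀ e, p e ∈ Pl b → p' (φ e) = p e) (φ₀ : E₀ → E₀')
    (hφκ : ∀ e, p (κ e) ∈ Pl b → κ' (φ₀ e) = φ (κ e))
    (Φ : X → X') (hΦ : ∀ x, q x = 0 → ContinuousAt Φ x)
    (hφι : ∀ e, p (κ e) ∈ Pl b → ι' (φ₀ e) = Φ (ι e)) (hΦq : ∀ x, q x = 0 → q' (Φ x) = 0)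
    (x : q ⁻¹' {0}) :
    h'.equiv hb hp' ⟨Φ x.1, hΦq x.1 x.2⟩ =
      Orb.map (fmap hb φ hφp) (fmap_monInf hb hp hp' φ hφ hφp) (h.equiv hb hp x) := by
  refine data_map (h.data hb hp) (h'.data hb hp') Φ hΦ hΦq
    (Orb.map (fmap hb φ hφp) (fmap_monInf hb hp hp' φ hφ hφp)) ?_ x
  refine ⟨⟨2 * bd b, le_rfl⟩, ⟨2 * bd b, le_rfl⟩, ?_⟩
  rintro o _ ⟨e, he, rfl⟩
  have h1 : p (κ e) ∈ Pl b :=
    norm_sub_pl le_rfl ((isFamily_infComp hb hp (le_refl (2 * bd b))).subset o he)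
  refine ⟨φ₀ e, ?_, hφι e h1⟩
  rw [mem_preimage, hφκ e h1]
  exact map_infComp hb hp hp' φ hφ hφp _ o he

end infinity

end Groth.Agent.Pi1.H147.Fib
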