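import Groth.Agent.Pi1.H147.Fib

/-!
# Points over a point over a puncture

For a map of coverings `E' → E` and the corresponding map `X' → X` of completed spaces, the points
of `X'` over a point `x` of `X` over `b i` (or over infinity) are in bijection with the orbits of the
monodromy in the fibre of `E'` which lie over the orbit of `x`.
-/

set_option autoImplicit false

open Topology Set

namespace Groth.Agent.Pi1.H147.FibCount

open Groth.Agent.Pi1.H147.Mono Groth.Agent.Pi1.H147.Fib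
open Groth.Agent.Pi1.H147.Slit Groth.Agent.Pi1.H147.Disc

/-- Fibres correspond under compatible bijections. -/
def fibreEquiv {A B A' B' : Type*} (eA : A ≃ A') (eB : B ≃ B') (f : B → A) (f' : B' → A')
    (h : ∀ y, eA (f y) = f' (eB y)) (x : A) : {y // f y = x} ≃ {y' // f' y' = eA x} where
  toFun y := ⟨eB y.1, by rw [← h, y.2]⟩
  invFun y' := ⟨eB.symm y'.1, by
    apply eA.injective
    rw [h, Equiv.apply_symm_apply, y'.2]⟩
  left_inv y := Subtype.ext (eB.symm_apply_apply _)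
  right_inv y' := Subtype.ext (eB.apply_symm_apply _)

section finite

variable {n : ℕ} {b : Fin n → ℂ} (hb : StrictMono fun i => (b i).re)
  {E E₀ X : Type*} [TopologicalSpace E] [TopologicalSpace E₀] [TopologicalSpace X]
  {p : E → ℂ} (hp : IsCoveringMapOn p (Pl b)) (i : Fin n)
  {q : X → ℂ} {κ : E₀ → E} {ι : E₀ → X}
  {E' E₀' X' : Type*} [TopologicalSpace E'] [TopologicalSpace E₀'] [TopologicalSpace X']
  {p' : E' → ℂ} (hp' : IsCoveringMapOn p' (Pl b)) {q' : X' → ℂ} {κ' : E₀' → E'} {ι' : E₀' → X'}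

/-- Points of `X` over a point of `X'` over `b i`. -/
noncomputable def finFibre (h : FinHyp b i p q κ ι) (h' : FinHyp b i p' q' κ' ι')
    (φ : E → E') (hφ : ContinuousOn φ (p ⁻¹' (Pl b)))
    (hφp : ∀ e, p e ∈ Pl b → p' (φ e) = p e) (φ₀ : E₀ → E₀')
    (hφκ : ∀ e, p (κ e) ∈ Pl b → κ' (φ₀ e) = φ (κ e))
    (Φ : X → X') (hΦ : ∀ x, q x = b i → ContinuousAt Φ x)
    (hφι : ∀ e, p (κ e) ∈ Pl b → ι' (φ₀ e) = Φ (ι e)) (hΦq : ∀ x, q x = b i → q' (Φ x) = b i)
    (x : q' ⁻¹' {b i}) :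
    {y : q ⁻¹' {b i} // Φ y.1 = x.1} ≃
      {o : Orb (mon hb hp i) //
        Orb.map (fmap hb φ hφp) (fmap_mon hb hp hp' φ hφ hφp i) o = h'.equiv hb hp' i x} :=
  (Equiv.subtypeEquivRight fun y => by
      constructor
      · intro hy
        exact Subtype.ext hy
      · intro hy
        exact congrArg Subtype.val hy).trans
    (fibreEquiv (h'.equiv hb hp' i) (h.equiv hb hp i)
      (fun y : q ⁻¹' {b i} => (⟨Φ y.1, hΦq y.1 y.2⟩ : q' ⁻¹' {b i})) _
      (fun y => h.equiv_map hb hp i hp' h' φ hφ hφp φ₀ hφκ Φ hΦ hφι hΦq y) x)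

end finite

section infinite

variable {n : ℕ} {b : Fin n → ℂ} (hb : StrictMono fun i => (b i).re)
  {E E₀ X : Type*} [TopologicalSpace E] [TopologicalSpace E₀] [TopologicalSpace X]
  {p : E → ℂ} (hp : IsCoveringMapOn p (Pl b))
  {q : X → ℂ} {κ : E₀ → E} {ι : E₀ → X}
  {E' E₀' X' : Type*} [TopologicalSpace E'] [TopologicalSpace E₀'] [TopologicalSpace X']
  {p' : E' → ℂ} (hp' : IsCoveringMapOn p' (Pl b)) {q' : X' → ℂ} {κ' : E₀' → E'} {ι' : E₀' → X'}

/-- Points of `X` over a point of `X'` over infinity. -/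
noncomputable def infFibre (h : InfHyp b p q κ ι) (h' : InfHyp b p' q' κ' ι')
    (φ : E → E') (hφ : ContinuousOn φ (p ⁻¹' (Pl b)))
    (hφp : ∀ e, p e ∈ Pl b → p' (φ e) = p e) (φ₀ : E₀ → E₀')
    (hφκ : ∀ e, p (κ e) ∈ Pl b → κ' (φ₀ e) = φ (κ e))
    (Φ : X → X') (hΦ : ∀ x, q x = 0 → ContinuousAt Φ x)
    (hφι : ∀ e, p (κ e) ∈ Pl b → ι' (φ₀ e) = Φ (ι e)) (hΦq : ∀ x, q x = 0 → q' (Φ x) = 0)
    (x : q' ⁻¹' {0}) :
    {y : q ⁻¹' {0} // Φ y.1 = x.1} ≃
      {o : Orb (monInf hb hp) //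
        Orb.map (fmap hb φ hφp) (fmap_monInf hb hp hp' φ hφ hφp) o = h'.equiv hb hp' x} :=
  (Equiv.subtypeEquivRight fun y => by
      constructor
      · intro hy
        exact Subtype.ext hy
      · intro hy
        exact congrArg Subtype.val hy).trans
    (fibreEquiv (h'.equiv hb hp') (h.equiv hb hp)
      (fun y : q ⁻¹' {0} => (⟨Φ y.1, hΦq y.1 y.2⟩ : q' ⁻¹' {0})) _
      (fun y => h.equiv_map hb hp hp' h' φ hφ hφp φ₀ hφκ Φ hΦ hφι hΦq y) x)

end infinite

end Groth.Agent.Pi1.H147.FibCount
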