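import Groth.Agent.Pi1.H147.FibCount
import Groth.Agent.Pi1.H402.Cnt

/-!
# The number of points over a point over a puncture

For a map of coverings `E → E'` and the corresponding map `X → X'` of completed spaces: the number of
points of `X` over `x` (a point of `X'` over `b i` or over infinity) equals the degree of `E → E'` if
and only if the `m`-th power of the monodromy acts trivially over the orbit of `x`, which has length `m`.
-/

set_option autoImplicit false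

open Topology Set

namespace Groth.Agent.Pi1.H147.LocCount

open Groth.Agent.Pi1.H147.Mono Groth.Agent.Pi1.H147.Fib Groth.Agent.Pi1.H147.FibCount
open Groth.Agent.Pi1.H147.Slit Groth.Agent.Pi1.H147.Disc

/-- The abstract count. -/
theorem card_orb_iff {F F' : Type*} {σ : Equiv.Perm F} {σ' : Equiv.Perm F'} (f : F → F')
    (hf : ∀ e, f (σ e) = σ' (f e)) (c : Orb σ') (e₀ : F') (he₀ : Orb.mk σ' e₀ = c)
    [Finite {e // f e = e₀}] :
    Nat.card {o : Orb σ // Orb.map f hf o = c} = Nat.card {e // f e = e₀} ↔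
      ∀ e, Orb.mk σ' (f e) = c → (σ ^ MulAction.period σ' e₀) e = e :=
  Groth.Agent.Pi1.H402.Cnt.card_fibre_map_eq_iff (σ := σ') (σ' := σ) f hf e₀ c he₀

section finite

variable {n : ℕ} {b : Fin n → ℂ} (hb : StrictMono fun i => (b i).re)
  {E E₀ X : Type*} [TopologicalSpace E] [TopologicalSpace E₀] [TopologicalSpace X]
  {p : E → ℂ} (hp : IsCoveringMapOn p (Pl b)) (i : Fin n)
  {q : X → ℂ} {κ : E₀ → E} {ι : E₀ → X}
  {E' E₀' X' : Type*} [TopologicalSpace E'] [TopologicalSpace E₀'] [TopologicalSpace X']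
  {p' : E' → ℂ} (hp' : IsCoveringMapOn p' (Pl b)) {q' : X' → ℂ} {κ' : E₀' → E'} {ι' : E₀' → X'}

/-- The count at a finite puncture. -/
theorem card_fin_iff (h : FinHyp b i p q κ ι) (h' : FinHyp b i p' q' κ' ι')
    (φ : E → E') (hφ : ContinuousOn φ (p ⁻¹' (Pl b)))
    (hφp : ∀ e, p e ∈ Pl b → p' (φ e) = p e) (φ₀ : E₀ → E₀')
    (hφκ : ∀ e, p (κ e) ∈ Pl b → κ' (φ₀ e) = φ (κ e))
    (Φ : X → X') (hΦ : ∀ x, q x = b i → ContinuousAt Φ x)
    (hφι : ∀ e, p (κ e) ∈ Pl b → ι' (φ₀ e) = Φ (ι e)) (hΦq : ∀ x, q x = b i → q' (Φ x) = b i)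
    (x : q' ⁻¹' {b i}) (e₀ : p' ⁻¹' {pt hb 0})
    (he₀ : Orb.mk (mon hb hp' i) e₀ = h'.equiv hb hp' i x)
    [Finite {e : p ⁻¹' {pt hb 0} // fmap hb φ hφp e = e₀}] :
    Nat.card {y : q ⁻¹' {b i} // Φ y.1 = x.1} =
        Nat.card {e : p ⁻¹' {pt hb 0} // fmap hb φ hφp e = e₀} ↔
      ∀ e : p ⁻¹' {pt hb 0}, Orb.mk (mon hb hp' i) (fmap hb φ hφp e) = h'.equiv hb hp' i x →
        (mon hb hp i ^ MulAction.period (mon hb hp' i) e₀) e = e := by
  rw [Nat.card_congr (finFibre hb hp i hp' h h' φ hφ hφp φ₀ hφκ Φ hΦ hφι hΦq x)]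
  exact card_orb_iff (fmap hb φ hφp) (fmap_mon hb hp hp' φ hφ hφp i) _ e₀ he₀

end finite

section infinite

variable {n : ℕ} {b : Fin n → ℂ} (hb : StrictMono fun i => (b i).re)
  {E E₀ X : Type*} [TopologicalSpace E] [TopologicalSpace E₀] [TopologicalSpace X]
  {p : E → ℂ} (hp : IsCoveringMapOn p (Pl b))
  {q : X → ℂ} {κ : E₀ → E} {ι : E₀ → X}
  {E' E₀' X' : Type*} [TopologicalSpace E'] [TopologicalSpace E₀'] [TopologicalSpace X']
  {p' : E' → ℂ} (hp' : IsCoveringMapOn p' (Pl b)) {q' : X' → ℂ} {κ' : E₀' → E'} {ι' : E₀' → X'}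

/-- The count at infinity. -/
theorem card_inf_iff (h : InfHyp b p q κ ι) (h' : InfHyp b p' q' κ' ι')
    (φ : E → E') (hφ : ContinuousOn φ (p ⁻¹' (Pl b)))
    (hφp : ∀ e, p e ∈ Pl b → p' (φ e) = p e) (φ₀ : E₀ → E₀')
    (hφκ : ∀ e, p (κ e) ∈ Pl b → κ' (φ₀ e) = φ (κ e))
    (Φ : X → X') (hΦ : ∀ x, q x = 0 → ContinuousAt Φ x)
    (hφι : ∀ e, p (κ e) ∈ Pl b → ι' (φ₀ e) = Φ (ι e)) (hΦq : ∀ x, q x = 0 → q' (Φ x) = 0)
    (x : q' ⁻¹' {0}) (e₀ : p' ⁻¹' {pt hb 0})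
    (he₀ : Orb.mk (monInf hb hp') e₀ = h'.equiv hb hp' x)
    [Finite {e : p ⁻¹' {pt hb 0} // fmap hb φ hφp e = e₀}] :
    Nat.card {y : q ⁻¹' {0} // Φ y.1 = x.1} =
        Nat.card {e : p ⁻¹' {pt hb 0} // fmap hb φ hφp e = e₀} ↔
      ∀ e : p ⁻¹' {pt hb 0}, Orb.mk (monInf hb hp') (fmap hb φ hφp e) = h'.equiv hb hp' x →
        (monInf hb hp ^ MulAction.period (monInf hb hp') e₀) e = e := by
  rw [Nat.card_congr (infFibre hb hp hp' h h' φ hφ hφp φ₀ hφκ Φ hΦ hφι hΦq x)]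
  exact card_orb_iff (fmap hb φ hφp) (fmap_monInf hb hp hp' φ hφ hφp) _ e₀ he₀

end infinite

end Groth.Agent.Pi1.H147.LocCount
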