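import Groth.Agent.Pi1.H147.TwoChart
import Groth.Agent.Pi1.H147.Disc
import Mathlib.GroupTheory.FreeGroup.Basic
import Mathlib.Algebra.Group.Subgroup.ZPowers.Basic
import Mathlib.GroupTheory.GroupAction.Basic

/-!
# Monodromy of coverings of the plane minus finitely many points

`b : Fin n → ℂ` with strictly increasing real parts, `p : E → ℂ` a covering over the plane minus
the points `b i`.  The base point is `pt hb 0`, a point of the leftmost strip.  We define the
permutations `mon i` of the fibre, `monInf`, prove the relation, the naturality, and describe the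
components of `E` over the plane minus the `b i`, over small punctured discs and at infinity.
-/

set_option autoImplicit false

open Topology Set

namespace Groth.Agent.Pi1.H147.Mono

open Groth.Agent.Pi1.H147.Sec Groth.Agent.Pi1.H147.TwoChart Groth.Agent.Pi1.H147.Slit
open Groth.Agent.Pi1.H147.Disc

/-- A decomposition of `T` into disjoint nonempty open connected subsets. -/
structure IsFamily {E : Type*} [TopologicalSpace E] (T : Set E) {O : Type*} (C : O → Set E) :
    Prop where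
  iUnion : ⋃ o, C o = T
  disj : ∀ o o' x, x ∈ C o → x ∈ C o' → o = o'
  isOpen : ∀ o, IsOpen (C o)
  isPreconnected : ∀ o, IsPreconnected (C o)
  nonempty : ∀ o, (C o).Nonempty

namespace IsFamily

variable {E : Type*} [TopologicalSpace E] {T : Set E} {O : Type*} {C : O → Set E}

theorem subset (h : IsFamily T C) (o : O) : C o ⊆ T := by
  rw [← h.iUnion]
  exact subset_iUnion C o

theorem exists_mem (h : IsFamily T C) {x : E} (hx : x ∈ T) : ∃ o, x ∈ C o := by
  rw [← h.iUnion] at hx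
  exact mem_iUnion.1 hx

/-- A preconnected subset of `T` which meets `C o` is contained in `C o`. -/
theorem subset_of_isPreconnected (h : IsFamily T C) {S : Set E} (hS : IsPreconnected S)
    (hST : S ⊆ T) {o : O} {x : E} (hx : x ∈ S) (hxo : x ∈ C o) : S ⊆ C o := by
  refine hS.subset_left_of_subset_union (h.isOpen o)
    (isOpen_iUnion fun o' : {o' // o' ≠ o} => h.isOpen o'.1) ?_ ?_ ⟨x, hx, hxo⟩
  · rw [Set.disjoint_left]
    intro y hy hy'
    obtain ⟨o', ho'⟩ := mem_iUnion.1 hy'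
    exact o'.2 (h.disj o'.1 o y ho' hy)
  · intro y hy
    obtain ⟨o', ho'⟩ := h.exists_mem (hST hy)
    by_cases hoo : o' = o
    · exact Or.inl (hoo ▸ ho')
    · exact Or.inr (mem_iUnion.2 ⟨⟨o', hoo⟩, ho'⟩)

theorem connectedComponentIn_eq (h : IsFamily T C) {x : E} {o : O} (hx : x ∈ C o) :
    connectedComponentIn T x = C o := by
  apply subset_antisymm
  · exact h.subset_of_isPreconnected isPreconnected_connectedComponentIn
      (connectedComponentIn_subset T x) (mem_connectedComponentIn (h.subset o hx)) hx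
  · exact (h.isPreconnected o).subset_connectedComponentIn hx (h.subset o)

theorem connectedComponentIn_eq_iff (h : IsFamily T C) {x y : E} {o o' : O} (hx : x ∈ C o)
    (hy : y ∈ C o') : connectedComponentIn T x = connectedComponentIn T y ↔ o = o' := by
  rw [h.connectedComponentIn_eq hx, h.connectedComponentIn_eq hy]
  constructor
  · intro he
    exact h.disj o o' x hx (he ▸ hx)
  · rintro rfl
    rfl

theorem subsingleton (h : IsFamily T C) (hT : IsPreconnected T) (o o' : O) : o = o' := by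
  obtain ⟨x, hx⟩ := h.nonempty o
  obtain ⟨y, hy⟩ := h.nonempty o'
  have h1 := h.subset_of_isPreconnected hT subset_rfl (h.subset o hx) hx
  exact h.disj o o' y (h1 (h.subset o' hy)) hy

/-- The union of some of the pieces is open with open complement. -/
theorem isOpen_diff (h : IsFamily T C) (S : Set O) :
    IsOpen (⋃ o ∈ S, C o) ∧ IsOpen (T \ ⋃ o ∈ S, C o) := by
  refine ⟨isOpen_biUnion fun o _ => h.isOpen o, ?_⟩
  have h1 : (T \ ⋃ o ∈ S, C o) = ⋃ o ∈ Sᶜ, C o := by
    ext x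
    constructor
    · rintro ⟨hx, hx'⟩
      obtain ⟨o, ho⟩ := h.exists_mem hx
      exact mem_iUnion₂.2 ⟨o, fun hoS => hx' (mem_iUnion₂.2 ⟨o, hoS, ho⟩), ho⟩
    · intro hx
      obtain ⟨o, hoS, ho⟩ := mem_iUnion₂.1 hx
      refine ⟨h.subset o ho, fun hx' => ?_⟩
      obtain ⟨o', hoS', ho'⟩ := mem_iUnion₂.1 hx'
      exact hoS (h.disj o o' x ho ho' ▸ hoS')
  rw [h1]
  exact isOpen_biUnion fun o _ => h.isOpen o

end IsFamily

/-- The orbits of a permutation. -/
abbrev Orb {F : Type*} (σ : Equiv.Perm F) : Type _ :=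
  MulAction.orbitRel.Quotient (Subgroup.zpowers σ) F

namespace Orb

variable {F F' F'' : Type*} {σ : Equiv.Perm F} {σ' : Equiv.Perm F'} {σ'' : Equiv.Perm F''}

/-- The orbit of an element. -/
abbrev mk (σ : Equiv.Perm F) (e : F) : Orb σ := Quotient.mk'' e

theorem mk_eq_iff (e e' : F) : mk σ e = mk σ e' ↔ ∃ m : ℤ, (σ ^ m) e' = e := by
  constructor
  · intro h
    obtain ⟨⟨τ, hτ⟩, h'⟩ := (Quotient.exact' h : e ∈ MulAction.orbit (Subgroup.zpowers σ) e')
    obtain ⟨m, rfl⟩ := Subgroup.mem_zpowers_iff.1 hτ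
    exact ⟨m, h'⟩
  · rintro ⟨m, rfl⟩
    exact Quotient.sound' (⟨⟨σ ^ m, Subgroup.zpow_mem_zpowers σ m⟩, rfl⟩ :
      (σ ^ m) e' ∈ MulAction.orbit (Subgroup.zpowers σ) e')

theorem mk_apply (e : F) : mk σ (σ e) = mk σ e := (mk_eq_iff _ _).2 ⟨1, by simp⟩

theorem zpow_apply_of (f : F → F') (hf : ∀ e, f (σ e) = σ' (f e)) (m : ℤ) (e : F) :
    f ((σ ^ m) e) = (σ' ^ m) (f e) := by
  have hinv : ∀ e, f (σ⁻¹ e) = σ'⁻¹ (f e) := by
    intro e
    rw [Equiv.Perm.eq_inv_iff_eq, ← hf]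
    congr 1
    exact σ.apply_symm_apply e
  induction m using Int.induction_on generalizing e with
  | zero => simp
  | succ k ih =>
    rw [zpow_add_one, zpow_add_one, Equiv.Perm.mul_apply, Equiv.Perm.mul_apply, ih, hf]
  | pred k ih =>
    rw [zpow_sub_one, zpow_sub_one, Equiv.Perm.mul_apply, Equiv.Perm.mul_apply, ih, hinv]

/-- The map induced on orbits by an equivariant map. -/
def map (f : F → F') (hf : ∀ e, f (σ e) = σ' (f e)) : Orb σ → Orb σ' :=
  Quotient.map' f fun e e' h => by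
    have h1 : mk σ e = mk σ e' := Quotient.sound' h
    obtain ⟨m, hm⟩ := (mk_eq_iff _ _).1 h1
    have h2 : mk σ' (f e) = mk σ' (f e') :=
      (mk_eq_iff _ _).2 ⟨m, by rw [← zpow_apply_of f hf, hm]⟩
    exact Quotient.exact' h2

@[simp] theorem map_mk (f : F → F') (hf : ∀ e, f (σ e) = σ' (f e)) (e : F) :
    map f hf (mk σ e) = mk σ' (f e) := rfl

theorem ind {P : Orb σ → Prop} (h : ∀ e, P (mk σ e)) (o : Orb σ) : P o :=
  Quotient.inductionOn' o h

end Orb

variable {n : ℕ} {b : Fin n → ℂ} (hb : StrictMono fun i => (b i).re)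

/-- A point of the `j`-th strip; `pt hb 0` is the base point. -/
noncomputable def pt (j : Fin (n + 1)) : ℂ := (strip_nonempty b hb j).choose

theorem pt_mem (j : Fin (n + 1)) : pt hb j ∈ Strip b j := (strip_nonempty b hb j).choose_spec

theorem pt_pos (j : Fin (n + 1)) : pt hb j ∈ Half b 1 := strip_subset_half b 1 j (pt_mem hb j)

theorem pt_neg (j : Fin (n + 1)) : pt hb j ∈ Half b (-1) :=
  strip_subset_half b (-1) j (pt_mem hb j)

theorem pt_mem_pl (j : Fin (n + 1)) : pt hb j ∈ Pl b := half_subset_pl b 1 (pt_pos hb j)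

variable (b) in
theorem good_pos : Good (Half b 1) := good_half b 1 (by norm_num)

variable (b) in
theorem good_neg : Good (Half b (-1)) := good_half b (-1) (by norm_num)

variable {E E' : Type*} [TopologicalSpace E] [TopologicalSpace E'] {p : E → ℂ} {p' : E' → ℂ}
  (hp : IsCoveringMapOn p (Pl b)) (hp' : IsCoveringMapOn p' (Pl b))

/-- The transition permutation at the `j`-th strip. -/
noncomputable def G (j : Fin (n + 1)) : Equiv.Perm (p ⁻¹' {pt hb 0}) :=
  g hp (good_pos b) (good_neg b) (half_subset_pl b 1) (half_subset_pl b (-1)) (pt_pos hb 0)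
    (pt_neg hb 0) (pt_pos hb j) (pt_neg hb j)

theorem G_zero : G hb hp 0 = 1 := g_self _ _ _ _ _ _ _

theorem G_eq (j : Fin (n + 1)) {w : ℂ} (hw : w ∈ Strip b j) :
    g hp (good_pos b) (good_neg b) (half_subset_pl b 1) (half_subset_pl b (-1)) (pt_pos hb 0)
      (pt_neg hb 0) (strip_subset_half b 1 j hw) (strip_subset_half b (-1) j hw) = G hb hp j :=
  g_eq hp (good_pos b) (good_neg b) (half_subset_pl b 1) (half_subset_pl b (-1)) (pt_pos hb 0)
    (pt_neg hb 0) (isPreconnected_strip b j) (strip_subset_half b 1 j)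
    (strip_subset_half b (-1) j) hw (pt_mem hb j)

/-- The monodromy around `b i`. -/
noncomputable def mon (i : Fin n) : Equiv.Perm (p ⁻¹' {pt hb 0}) :=
  (G hb hp i.castSucc)⁻¹ * G hb hp i.succ

/-- The monodromy around infinity. -/
noncomputable def monInf : Equiv.Perm (p ⁻¹' {pt hb 0}) := (G hb hp (Fin.last n))⁻¹

theorem prod_ofFn_telescope {K : Type*} [Group K] (m : ℕ) (f : Fin (m + 1) → K) :
    (List.ofFn fun i : Fin m => (f i.castSucc)⁻¹ * f i.succ).prod = (f 0)⁻¹ * f (Fin.last m) := by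
  induction m with
  | zero => simp
  | succ m ih =>
    rw [List.ofFn_succ, List.prod_cons]
    have h := ih fun i => f i.succ
    have h' : (List.ofFn fun i : Fin m => (f (i.succ).castSucc)⁻¹ * f (i.succ).succ).prod =
        (f (Fin.succ 0))⁻¹ * f (Fin.last m).succ := by
      rw [← h]
      rfl
    rw [h']
    simp [mul_assoc]

/-- The relation between the monodromies. -/
theorem prod_mon : (List.ofFn (mon hb hp)).prod * monInf hb hp = 1 := by
  have h : (List.ofFn (mon hb hp)).prod = (G hb hp 0)⁻¹ * G hb hp (Fin.last n) :=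
    prod_ofFn_telescope n (G hb hp)
  rw [h, G_zero, inv_one, one_mul, monInf, mul_inv_cancel]

theorem prod_mon' (k : Fin (n + 1)) :
    G hb hp k = (List.ofFn fun i : Fin k => mon hb hp ⟨i, by omega⟩).prod := by
  have h := prod_ofFn_telescope (k : ℕ) fun i : Fin ((k : ℕ) + 1) => G hb hp ⟨i, by omega⟩
  have h0 : G hb hp ⟨((0 : Fin ((k : ℕ) + 1)) : ℕ), by omega⟩ = 1 := by
    rw [← G_zero hb hp]
    rfl
  rw [h0, inv_one, one_mul] at h
  exact h.symm

section natural

variable (φ : E → E') (hφ : ContinuousOn φ (p ⁻¹' (Pl b))) (hφp : ∀ e, p e ∈ Pl b → p' (φ e) = p e)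

/-- The map induced on the fibres over the base point. -/
def fmap (e : p ⁻¹' {pt hb 0}) : p' ⁻¹' {pt hb 0} :=
  ⟨φ e.1, by
    have h : p e.1 = pt hb 0 := e.2
    rw [mem_preimage, hφp _ (by rw [h]; exact pt_mem_pl hb 0), h]
    rfl⟩

omit [TopologicalSpace E] [TopologicalSpace E'] in
@[simp] theorem fmap_val (e : p ⁻¹' {pt hb 0}) : (fmap hb φ hφp e).1 = φ e.1 := rfl

include hφ in
theorem fmap_G (j : Fin (n + 1)) (e : p ⁻¹' {pt hb 0}) :
    fmap hb φ hφp (G hb hp j e) = G hb hp' j (fmap hb φ hφp e) :=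
  Subtype.ext (map_g hp (good_pos b) (good_neg b) (half_subset_pl b 1) (half_subset_pl b (-1))
    (pt_pos hb 0) (pt_neg hb 0) hp' φ hφ hφp _ _ e _ rfl)

include hφ in
theorem fmap_G_inv (j : Fin (n + 1)) (e : p ⁻¹' {pt hb 0}) :
    fmap hb φ hφp ((G hb hp j)⁻¹ e) = (G hb hp' j)⁻¹ (fmap hb φ hφp e) := by
  rw [Equiv.Perm.eq_inv_iff_eq, ← fmap_G hb hp hp' φ hφ hφp, perm_apply_inv]

include hφ in
theorem fmap_mon (i : Fin n) (e : p ⁻¹' {pt hb 0}) :
    fmap hb φ hφp (mon hb hp i e) = mon hb hp' i (fmap hb φ hφp e) := by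
  rw [mon, mon, Equiv.Perm.mul_apply, Equiv.Perm.mul_apply, fmap_G_inv hb hp hp' φ hφ hφp,
    fmap_G hb hp hp' φ hφ hφp]

include hφ in
theorem fmap_monInf (e : p ⁻¹' {pt hb 0}) :
    fmap hb φ hφp (monInf hb hp e) = monInf hb hp' (fmap hb φ hφp e) :=
  fmap_G_inv hb hp hp' φ hφ hφp _ e

end natural

/-! ### components -/

section comp

/-- The union of the pieces attached to an orbit of a subgroup `H` of permutations. -/
def cmp (H : Subgroup (Equiv.Perm (p ⁻¹' {pt hb 0}))) (k : Fin (n + 1)) (D₁ D₂ : Set ℂ)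
    (o : MulAction.orbitRel.Quotient H (p ⁻¹' {pt hb 0})) : Set E :=
  ⋃ e ∈ {e : p ⁻¹' {pt hb 0} |
      (Quotient.mk'' e : MulAction.orbitRel.Quotient H (p ⁻¹' {pt hb 0})) = o},
    (Img hp (good_pos b) (half_subset_pl b 1) (pt_pos hb 0) e D₁ ∪
      Img hp (good_neg b) (half_subset_pl b (-1)) (pt_neg hb 0) (G hb hp k e) D₂)

theorem isFamily_cmp {J : Type*} (s : J → Fin (n + 1)) (j₀ : J)
    (H : Subgroup (Equiv.Perm (p ⁻¹' {pt hb 0})))
    (hH : H = Subgroup.closure (Set.range fun j => (G hb hp (s j₀))⁻¹ * G hb hp (s j)))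
    {D₁ D₂ : Set ℂ} (h1 : D₁ ⊆ Half b 1) (h2 : D₂ ⊆ Half b (-1)) (ho₁ : IsOpen D₁)
    (ho₂ : IsOpen D₂) (hc₁ : IsPreconnected D₁) (hc₂ : IsPreconnected D₂)
    (hD : D₁ ∩ D₂ ⊆ ⋃ j, Strip b (s j)) (hne : ∀ j, (D₁ ∩ D₂ ∩ Strip b (s j)).Nonempty) :
    IsFamily (p ⁻¹' (D₁ ∪ D₂)) (cmp hb hp H (s j₀) D₁ D₂) := by
  subst hH
  have hL := fun j => isPreconnected_strip b (s j)
  have hL₁ := fun j => strip_subset_half b 1 (s j)
  have hL₂ := fun j => strip_subset_half b (-1) (s j)
  have hw := fun j => pt_mem hb (s j)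
  exact
    { iUnion := iUnion_comp hp (good_pos b) (good_neg b) (half_subset_pl b 1)
        (half_subset_pl b (-1)) (pt_pos hb 0) (pt_neg hb 0) (fun j => Strip b (s j))
        (fun j => pt hb (s j)) hw hL₁ hL₂ j₀ h1 h2
      disj := fun o o' x hx hx' => comp_disjoint hp (good_pos b) (good_neg b) (half_subset_pl b 1)
        (half_subset_pl b (-1)) (pt_pos hb 0) (pt_neg hb 0) (fun j => Strip b (s j))
        (fun j => pt hb (s j)) hw hL hL₁ hL₂ j₀ hD hx hx'
      isOpen := fun o => isOpen_comp hp (good_pos b) (good_neg b) (half_subset_pl b 1)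
        (half_subset_pl b (-1)) (pt_pos hb 0) (pt_neg hb 0) (fun j => Strip b (s j))
        (fun j => pt hb (s j)) hw hL₁ hL₂ j₀ (isOpen_half b 1) (isOpen_half b (-1)) ho₁ ho₂ o
      isPreconnected := fun o => isPreconnected_comp hp (good_pos b) (good_neg b)
        (half_subset_pl b 1) (half_subset_pl b (-1)) (pt_pos hb 0) (pt_neg hb 0)
        (fun j => Strip b (s j)) (fun j => pt hb (s j)) hw hL hL₁ hL₂ j₀ hc₁ hc₂ h1 h2 hne o
      nonempty := fun o => nonempty_comp hp (good_pos b) (good_neg b) (half_subset_pl b 1)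
        (half_subset_pl b (-1)) (pt_pos hb 0) (pt_neg hb 0) (fun j => Strip b (s j))
        (fun j => pt hb (s j)) hw hL₁ hL₂ j₀ h1
        ((hne j₀).mono fun _ hx => hx.1.1) o }

theorem cmp_mono (H : Subgroup (Equiv.Perm (p ⁻¹' {pt hb 0}))) (k : Fin (n + 1))
    {D₁ D₂ D₁' D₂' : Set ℂ} (h1 : D₁' ⊆ D₁) (h2 : D₂' ⊆ D₂)
    (o : MulAction.orbitRel.Quotient H (p ⁻¹' {pt hb 0})) :
    cmp hb hp H k D₁' D₂' o ⊆ cmp hb hp H k D₁ D₂ o := by
  refine Set.iUnion₂_mono fun e _ => ?_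
  rintro x (⟨z, hz, hzD, rfl⟩ | ⟨z, hz, hzD, rfl⟩)
  · exact Or.inl ⟨z, hz, h1 hzD, rfl⟩
  · exact Or.inr ⟨z, hz, h2 hzD, rfl⟩

/-- The transport inside the upper half plane of a point `e` of the fibre lies in the component
attached to the orbit of `e`. -/
theorem tr_mem_cmp (H : Subgroup (Equiv.Perm (p ⁻¹' {pt hb 0}))) (k : Fin (n + 1))
    {D₁ D₂ : Set ℂ} (e : p ⁻¹' {pt hb 0}) {z : ℂ} (hz : z ∈ Half b 1) (hzD : z ∈ D₁) :
    (tr hp (good_pos b) (half_subset_pl b 1) (pt_pos hb 0) hz e).1 ∈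
      cmp hb hp H k D₁ D₂ (Quotient.mk'' e) :=
  Set.mem_iUnion₂.2 ⟨e, rfl, Or.inl ⟨z, hz, hzD, rfl⟩⟩

theorem map_cmp (φ : E → E') (hφ : ContinuousOn φ (p ⁻¹' (Pl b)))
    (hφp : ∀ e, p e ∈ Pl b → p' (φ e) = p e)
    (H : Subgroup (Equiv.Perm (p ⁻¹' {pt hb 0}))) (H' : Subgroup (Equiv.Perm (p' ⁻¹' {pt hb 0})))
    (k : Fin (n + 1)) (D₁ D₂ : Set ℂ) (o : MulAction.orbitRel.Quotient H (p ⁻¹' {pt hb 0}))
    (o' : MulAction.orbitRel.Quotient H' (p' ⁻¹' {pt hb 0}))
    (ho : ∀ e : p ⁻¹' {pt hb 0},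
      (Quotient.mk'' e : MulAction.orbitRel.Quotient H (p ⁻¹' {pt hb 0})) = o →
        (Quotient.mk'' (fmap hb φ hφp e) :
          MulAction.orbitRel.Quotient H' (p' ⁻¹' {pt hb 0})) = o')
    {x : E} (hx : x ∈ cmp hb hp H k D₁ D₂ o) : φ x ∈ cmp hb hp' H' k D₁ D₂ o' := by
  obtain ⟨e, he, hx⟩ := Set.mem_iUnion₂.1 hx
  refine Set.mem_iUnion₂.2 ⟨fmap hb φ hφp e, ho e he, ?_⟩
  rcases hx with ⟨z, hz, hzD, rfl⟩ | ⟨z, hz, hzD, rfl⟩
  · exact Or.inl ⟨z, hz, hzD, (map_tr hp hp' (good_pos b) (half_subset_pl b 1) φ hφ hφp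
      (pt_pos hb 0) hz e _ rfl).symm⟩
  · exact Or.inr ⟨z, hz, hzD, (map_tr hp hp' (good_neg b) (half_subset_pl b (-1)) φ hφ hφp
      (pt_neg hb 0) hz (G hb hp k e) _
      (congrArg Subtype.val (fmap_G hb hp hp' φ hφ hφp k e))).symm⟩

end comp

/-! ### global components -/

section global

/-- The group generated by the monodromies. -/
def monGrp : Subgroup (Equiv.Perm (p ⁻¹' {pt hb 0})) :=
  Subgroup.closure (Set.range (mon hb hp))

theorem mon_mem (i : Fin n) : mon hb hp i ∈ monGrp hb hp := Subgroup.subset_closure ⟨i, rfl⟩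

theorem G_mem (k : Fin (n + 1)) : G hb hp k ∈ monGrp hb hp := by
  rw [prod_mon']
  refine Subgroup.list_prod_mem _ fun x hx => ?_
  rw [List.mem_ofFn] at hx
  obtain ⟨i, rfl⟩ := hx
  exact mon_mem hb hp _

theorem monGrp_eq : monGrp hb hp =
    Subgroup.closure (Set.range fun j => (G hb hp 0)⁻¹ * G hb hp j) := by
  apply le_antisymm
  · rw [monGrp, Subgroup.closure_le]
    rintro _ ⟨i, rfl⟩
    have h : ∀ j, G hb hp j ∈ Subgroup.closure (Set.range fun j => (G hb hp 0)⁻¹ * G hb hp j) := by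
      intro j
      refine Subgroup.subset_closure ⟨j, ?_⟩
      simp only
      rw [G_zero, inv_one, one_mul]
    exact Subgroup.mul_mem _ (Subgroup.inv_mem _ (h _)) (h _)
  · rw [Subgroup.closure_le]
    rintro _ ⟨j, rfl⟩
    exact Subgroup.mul_mem _ (Subgroup.inv_mem _ (G_mem hb hp _)) (G_mem hb hp _)

theorem isPreconnected_half (s : ℝ) (hs : s * s = 1) : IsPreconnected (Half b s) := by
  have := (good_half b s hs).sc
  exact isPreconnected_iff_preconnectedSpace.mpr inferInstance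

/-- The component of `p ⁻¹' (Pl b)` attached to an orbit of the monodromy group. -/
def glob (o : MulAction.orbitRel.Quotient (monGrp hb hp) (p ⁻¹' {pt hb 0})) : Set E :=
  cmp hb hp (monGrp hb hp) 0 (Half b 1) (Half b (-1)) o

theorem isFamily_glob : IsFamily (p ⁻¹' (Pl b)) (glob hb hp) := by
  have h := isFamily_cmp hb hp (J := Fin (n + 1)) id 0 (monGrp hb hp) (monGrp_eq hb hp)
    (D₁ := Half b 1) (D₂ := Half b (-1)) subset_rfl subset_rfl (isOpen_half b 1)
    (isOpen_half b (-1)) (isPreconnected_half 1 (by norm_num))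
    (isPreconnected_half (-1) (by norm_num)) (half_inter_half b hb)
    (fun j => ⟨pt hb j, ⟨pt_pos hb j, pt_neg hb j⟩, pt_mem hb j⟩)
  rw [half_union_half b hb] at h
  exact h

theorem mem_glob (e : p ⁻¹' {pt hb 0}) : e.1 ∈ glob hb hp (Quotient.mk'' e) := by
  have h := tr_mem_cmp hb hp (monGrp hb hp) 0 (D₁ := Half b 1) (D₂ := Half b (-1)) e (pt_pos hb 0)
    (pt_pos hb 0)
  rw [tr_self] at h
  exact h

/-- If `E` is connected over the plane minus the points, the monodromy group is transitive. -/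
theorem transitive (hc : IsPreconnected (p ⁻¹' (Pl b))) (e e' : p ⁻¹' {pt hb 0}) :
    ∃ σ ∈ monGrp hb hp, σ e = e' := by
  have h := (isFamily_glob hb hp).subsingleton hc (Quotient.mk'' e') (Quotient.mk'' e)
  obtain ⟨⟨σ, hσ⟩, hσe⟩ := (Quotient.exact' h : e' ∈ MulAction.orbit (monGrp hb hp) e)
  exact ⟨σ, hσ, hσe⟩

/-- The action of the free group. -/
noncomputable def act : FreeGroup (Fin n) →* Equiv.Perm (p ⁻¹' {pt hb 0}) :=
  FreeGroup.lift (mon hb hp)

@[simp] theorem act_of (i : Fin n) : act hb hp (FreeGroup.of i) = mon hb hp i :=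
  FreeGroup.lift_apply_of

theorem range_act : (act hb hp).range = monGrp hb hp := FreeGroup.range_lift_eq_closure

theorem transitive_act (hc : IsPreconnected (p ⁻¹' (Pl b))) (e e' : p ⁻¹' {pt hb 0}) :
    ∃ γ : FreeGroup (Fin n), act hb hp γ e = e' := by
  obtain ⟨σ, hσ, h⟩ := transitive hb hp hc e e'
  rw [← range_act] at hσ
  obtain ⟨γ, rfl⟩ := hσ
  exact ⟨γ, h⟩

theorem fmap_act (φ : E → E') (hφ : ContinuousOn φ (p ⁻¹' (Pl b)))
    (hφp : ∀ e, p e ∈ Pl b → p' (φ e) = p e) (γ : FreeGroup (Fin n)) (e : p ⁻¹' {pt hb 0}) :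
    fmap hb φ hφp (act hb hp γ e) = act hb hp' γ (fmap hb φ hφp e) := by
  induction γ using FreeGroup.induction_on generalizing e with
  | C1 => simp
  | of i => simpa using fmap_mon hb hp hp' φ hφ hφp i e
  | inv_of i _ =>
    rw [map_inv, map_inv, act_of, act_of, Equiv.Perm.eq_inv_iff_eq,
      ← fmap_mon hb hp hp' φ hφ hφp, perm_apply_inv]
  | mul x y hx hy => rw [map_mul, map_mul, Equiv.Perm.mul_apply, Equiv.Perm.mul_apply, hx, hy]

theorem mem_of_mem_orbit (S : Set (p ⁻¹' {pt hb 0}))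
    (hS : ∀ i e, mon hb hp i e ∈ S ↔ e ∈ S) (σ : Equiv.Perm (p ⁻¹' {pt hb 0}))
    (hσ : σ ∈ monGrp hb hp) (e : p ⁻¹' {pt hb 0}) : σ e ∈ S ↔ e ∈ S := by
  induction hσ using Subgroup.closure_induction generalizing e with
  | mem x hx =>
    obtain ⟨i, rfl⟩ := hx
    exact hS i e
  | one => exact Iff.rfl
  | mul x y _ _ hx hy => rw [Equiv.Perm.mul_apply, hx, hy]
  | inv x _ hx => rw [← hx, perm_apply_inv]

/-- A subset of the fibre stable under the monodromies comes from an open and closed subset of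
`p ⁻¹' (Pl b)`. -/
theorem exists_clopen (S : Set (p ⁻¹' {pt hb 0}))
    (hS : ∀ i e, mon hb hp i e ∈ S ↔ e ∈ S) :
    ∃ C : Set E, C ⊆ p ⁻¹' (Pl b) ∧ IsOpen C ∧ IsOpen (p ⁻¹' (Pl b) \ C) ∧
      ∀ e : p ⁻¹' {pt hb 0}, e.1 ∈ C ↔ e ∈ S := by
  have hF := isFamily_glob hb hp
  let S' : Set (MulAction.orbitRel.Quotient (monGrp hb hp) (p ⁻¹' {pt hb 0})) :=
    {o | ∃ e ∈ S, Quotient.mk'' e = o}
  refine ⟨⋃ o ∈ S', glob hb hp o, Set.iUnion₂_subset fun o _ => hF.subset o,
    (hF.isOpen_diff S').1, (hF.isOpen_diff S').2, fun e => ?_⟩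
  constructor
  · intro he
    obtain ⟨o, ⟨e', he', rfl⟩, heo⟩ := Set.mem_iUnion₂.1 he
    have h := hF.disj _ _ _ heo (mem_glob hb hp e)
    obtain ⟨⟨σ, hσ⟩, hσe⟩ := (Quotient.exact' h : e' ∈ MulAction.orbit (monGrp hb hp) e)
    have hσe' : σ e = e' := hσe
    rw [← hσe', mem_of_mem_orbit hb hp S hS σ hσ] at he'
    exact he'
  · intro he
    exact Set.mem_iUnion₂.2 ⟨Quotient.mk'' e, ⟨e, he, rfl⟩, mem_glob hb hp e⟩

/-- If the monodromy group is transitive, `E` is connected over the plane minus the points. -/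
theorem isPreconnected_of_transitive
    (h : ∀ e e' : p ⁻¹' {pt hb 0}, ∃ σ ∈ monGrp hb hp, σ e = e') :
    IsPreconnected (p ⁻¹' (Pl b)) := by
  have hF := isFamily_glob hb hp
  rcases isEmpty_or_nonempty (p ⁻¹' {pt hb 0}) with hE | ⟨⟨e⟩⟩
  · have h0 : p ⁻¹' (Pl b) = ∅ := by
      rw [← hF.iUnion]
      refine Set.iUnion_eq_empty.2 fun o => ?_
      induction o using Quotient.inductionOn' with
      | h e => exact (hE.false e).elim
    rw [h0]
    exact isPreconnected_empty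
  · have h1 : p ⁻¹' (Pl b) = glob hb hp (Quotient.mk'' e) := by
      rw [← hF.iUnion]
      refine subset_antisymm (Set.iUnion_subset fun o => ?_) (Set.subset_iUnion _ _)
      have ho : o = Quotient.mk'' e := by
        induction o using Quotient.inductionOn' with
        | h e' =>
          obtain ⟨σ, hσ, hσe⟩ := h e e'
          exact Quotient.sound' (⟨⟨σ, hσ⟩, hσe⟩ : e' ∈ MulAction.orbit (monGrp hb hp) e)
      rw [ho]
    rw [h1]
    exact hF.isPreconnected _

end global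

/-! ### local components at `b i` -/

section loc

variable (i : Fin n)

theorem zpowers_eq_closure {K : Type*} [Group K] (a c : K) :
    Subgroup.zpowers (a⁻¹ * c) =
      Subgroup.closure (Set.range fun j : Bool => a⁻¹ * cond j c a) := by
  have h : (Set.range fun j : Bool => a⁻¹ * cond j c a) = {1, a⁻¹ * c} := by
    ext x
    constructor
    · rintro ⟨j, rfl⟩
      cases j <;> simp
    · rintro (rfl | rfl)
      · exact ⟨false, by simp⟩
      · exact ⟨true, by simp⟩
  rw [h, Subgroup.closure_insert_one, Subgroup.zpowers_eq_closure]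

/-- The component over the punctured disc of radius `r` at `b i` attached to an orbit of
`mon i`. -/
def locComp (r : ℝ) (o : Orb (mon hb hp i)) : Set E :=
  cmp hb hp (Subgroup.zpowers (mon hb hp i)) i.castSucc (DHalf b i r 1) (DHalf b i r (-1)) o

theorem isFamily_locComp {r : ℝ} (hr : IsSmall b i r) :
    IsFamily (p ⁻¹' (Metric.ball (b i) r \ {b i})) (locComp hb hp i r) := by
  have h := isFamily_cmp hb hp (J := Bool) (fun j => cond j i.succ i.castSucc) false
    (Subgroup.zpowers (mon hb hp i))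
    (by
      rw [mon, zpowers_eq_closure]
      congr 2
      ext j : 1
      cases j <;> rfl)
    (D₁ := DHalf b i r 1) (D₂ := DHalf b i r (-1)) (dHalf_subset b hr 1) (dHalf_subset b hr (-1))
    (isOpen_dHalf b i r 1) (isOpen_dHalf b i r (-1)) (isPreconnected_dHalf b i hr.1 1 (by norm_num))
    (isPreconnected_dHalf b i hr.1 (-1) (by norm_num))
    (by
      refine (dHalf_inter b hr hb).trans ?_
      rintro z (hz | hz)
      · exact mem_iUnion.2 ⟨false, hz⟩
      · exact mem_iUnion.2 ⟨true, hz⟩)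
    (by
      rintro (_ | _)
      · exact inter_strip_left b hr hb
      · exact inter_strip_right b hr hb)
  rw [dHalf_union] at h
  exact h

theorem locComp_mono {r r' : ℝ} (h : r' ≤ r) (o : Orb (mon hb hp i)) :
    locComp hb hp i r' o ⊆ locComp hb hp i r o :=
  cmp_mono hb hp _ _ (dHalf_mono b h 1) (dHalf_mono b h (-1)) o

theorem tr_mem_locComp {r : ℝ} (hr : IsSmall b i r) (e : p ⁻¹' {pt hb 0}) {z : ℂ}
    (hz : z ∈ DHalf b i r 1) :
    (tr hp (good_pos b) (half_subset_pl b 1) (pt_pos hb 0) (dHalf_subset b hr 1 hz) e).1 ∈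
      locComp hb hp i r (Orb.mk _ e) :=
  tr_mem_cmp hb hp _ _ e _ hz

theorem map_locComp (φ : E → E') (hφ : ContinuousOn φ (p ⁻¹' (Pl b)))
    (hφp : ∀ e, p e ∈ Pl b → p' (φ e) = p e) (r : ℝ) (o : Orb (mon hb hp i)) {x : E}
    (hx : x ∈ locComp hb hp i r o) :
    φ x ∈ locComp hb hp' i r (Orb.map (fmap hb φ hφp) (fmap_mon hb hp hp' φ hφ hφp i) o) := by
  refine map_cmp hb hp hp' φ hφ hφp _ _ _ _ _ o _ ?_ hx
  rintro e rfl
  rfl

end loc

/-! ### local components at infinity -/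

section infty

variable (b) in
/-- A bound for the points. -/
noncomputable def bd : ℝ := (exists_bound b).choose

variable (b) in
theorem isLarge_bd {R : ℝ} (hR : 2 * bd b ≤ R) : IsLarge b (bd b) R :=
  ⟨(exists_bound b).choose_spec.1, (exists_bound b).choose_spec.2, hR⟩

/-- The component over `R < ‖z‖` attached to an orbit of `monInf`. -/
def infComp (R : ℝ) (o : Orb (monInf hb hp)) : Set E :=
  cmp hb hp (Subgroup.zpowers (monInf hb hp)) 0 (IHalf (bd b) R 1) (IHalf (bd b) R (-1)) o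

theorem isFamily_infComp {R : ℝ} (hR : 2 * bd b ≤ R) :
    IsFamily (p ⁻¹' {z | R < ‖z‖}) (infComp hb hp R) := by
  have hL := isLarge_bd b hR
  have h := isFamily_cmp hb hp (J := Bool) (fun j => cond j (Fin.last n) 0) false
    (Subgroup.zpowers (monInf hb hp))
    (by
      rw [monInf, Subgroup.zpowers_inv]
      have h1 : G hb hp (Fin.last n) = (G hb hp 0)⁻¹ * G hb hp (Fin.last n) := by
        rw [G_zero, inv_one, one_mul]
      rw [h1, zpowers_eq_closure]
      congr 2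
      ext j : 1
      cases j <;> rfl)
    (D₁ := IHalf (bd b) R 1) (D₂ := IHalf (bd b) R (-1)) (iHalf_subset b hL 1 (by norm_num))
    (iHalf_subset b hL (-1) (by norm_num))
    (isOpen_iHalf _ R 1) (isOpen_iHalf _ R (-1)) (isPreconnected_iHalf hL.1 hL.2.2 1 (by norm_num))
    (isPreconnected_iHalf hL.1 hL.2.2 (-1) (by norm_num))
    (by
      refine (iHalf_inter b hL).trans ?_
      rintro z (hz | hz)
      · exact mem_iUnion.2 ⟨false, hz⟩
      · exact mem_iUnion.2 ⟨true, hz⟩)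
    (by
      rintro (_ | _)
      · exact inter_strip_zero b hL
      · exact inter_strip_last b hL)
  rw [iHalf_union b hL] at h
  exact h

theorem infComp_mono {R R' : ℝ} (h : R ≤ R') (o : Orb (monInf hb hp)) :
    infComp hb hp R' o ⊆ infComp hb hp R o :=
  cmp_mono hb hp _ _ (iHalf_mono h 1) (iHalf_mono h (-1)) o

theorem tr_mem_infComp {R : ℝ} (hR : 2 * bd b ≤ R) (e : p ⁻¹' {pt hb 0}) {z : ℂ}
    (hz : z ∈ IHalf (bd b) R 1) :
    (tr hp (good_pos b) (half_subset_pl b 1) (pt_pos hb 0)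
      (iHalf_subset b (isLarge_bd b hR) 1 (by norm_num) hz) e).1 ∈
      infComp hb hp R (Orb.mk _ e) :=
  tr_mem_cmp hb hp _ _ e _ hz

theorem map_infComp (φ : E → E') (hφ : ContinuousOn φ (p ⁻¹' (Pl b)))
    (hφp : ∀ e, p e ∈ Pl b → p' (φ e) = p e) (R : ℝ) (o : Orb (monInf hb hp)) {x : E}
    (hx : x ∈ infComp hb hp R o) :
    φ x ∈ infComp hb hp' R (Orb.map (fmap hb φ hφp) (fmap_monInf hb hp hp' φ hφ hφp) o) := by
  refine map_cmp hb hp hp' φ hφ hφp _ _ _ _ _ o _ ?_ hx
  rintro e rfl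
  rfl

end infty

end Groth.Agent.Pi1.H147.Mono
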