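import Groth.Agent.Pi1.H147.Slit
import Mathlib.Data.Finset.Sort
import Mathlib.Topology.Algebra.GroupWithZero

/-!
# Rotating finitely many points into general position

After multiplication by a suitable nonzero complex number `c` the points of a finite set have
pairwise distinct real parts and can be numbered by increasing real part.
-/

set_option autoImplicit false

open Topology Set

namespace Groth.Agent.Pi1.H147.Rot

open Groth.Agent.Pi1.H147.Slit

theorem exists_injOn (S : Finset ℂ) : ∃ t : ℝ, Set.InjOn (fun z : ℂ => z.re + t * z.im) S := by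
  classical
  obtain ⟨t, ht⟩ := Infinite.exists_notMem_finset
    ((S ×ˢ S).image fun x : ℂ × ℂ => (x.2.re - x.1.re) / (x.1.im - x.2.im))
  refine ⟨t, fun z hz w hw h => ?_⟩
  simp only at h
  by_contra hne
  by_cases him : z.im = w.im
  · exact hne (Complex.ext (by rw [him] at h; linarith) him)
  · refine ht (Finset.mem_image.2 ⟨(z, w), Finset.mem_product.2 ⟨hz, hw⟩, ?_⟩)
    simp only
    rw [div_eq_iff (sub_ne_zero.2 him)]
    linarith

theorem exists_rot (S : Finset ℂ) : ∃ (c : ℂ) (b : Fin S.card → ℂ), c ≠ 0 ∧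
    (StrictMono fun i => (b i).re) ∧ ∀ z, z ∈ S ↔ ∃ i, c * z = b i := by
  classical
  obtain ⟨t, ht⟩ := exists_injOn S
  let c : ℂ := ⟨1, -t⟩
  have hc : c ≠ 0 := by
    intro h
    have := congrArg Complex.re h
    simp [c] at this
  have hcre : ∀ z : ℂ, (c * z).re = z.re + t * z.im := by
    intro z
    simp [c, Complex.mul_re]
  let f : ℂ → ℝ := fun z => z.re + t * z.im
  have hcard : (S.image f).card = S.card := Finset.card_image_of_injOn ht
  let e : Fin S.card ↪o ℝ := (S.image f).orderEmbOfFin hcard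
  have he : ∀ i, ∃ z ∈ S, f z = e i := fun i =>
    Finset.mem_image.1 ((S.image f).orderEmbOfFin_mem hcard i)
  choose w hw hfw using he
  refine ⟨c, fun i => c * w i, hc, ?_, fun z => ⟨fun hz => ?_, ?_⟩⟩
  · intro i j hij
    simp only [hcre]
    have h1 : f (w i) < f (w j) := by
      rw [hfw, hfw]
      exact e.strictMono hij
    exact h1
  · have h2 : f z ∈ Set.range e := by
      rw [Finset.range_orderEmbOfFin]
      exact Finset.mem_coe.2 (Finset.mem_image_of_mem f hz)
    obtain ⟨i, hi⟩ := h2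
    refine ⟨i, ?_⟩
    rw [ht hz (hw i) (show f z = f (w i) by rw [hfw, hi])]
  · rintro ⟨i, hi⟩
    rw [mul_left_cancel₀ hc hi]
    exact hw i

theorem covering_mul {E : Type*} [TopologicalSpace E] {p : E → ℂ} (S : Finset ℂ)
    (hp : IsCoveringMapOn p (S : Set ℂ)ᶜ) {c : ℂ} (hc : c ≠ 0) {n : ℕ} {b : Fin n → ℂ}
    (h : ∀ z, z ∈ S ↔ ∃ i, c * z = b i) : IsCoveringMapOn (fun e => c * p e) (Pl b) := by
  have h1 := hp.homeomorph_comp (Homeomorph.mulLeft₀ c hc)
  refine h1.mono ?_
  intro z hz hS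
  obtain ⟨i, hi⟩ := (h _).1 hS
  refine hz i ?_
  rw [← hi]
  exact ((Homeomorph.mulLeft₀ c hc).apply_symm_apply z).symm

theorem preimage_pl {E : Type*} {p : E → ℂ} (S : Finset ℂ) {c : ℂ} {n : ℕ}
    {b : Fin n → ℂ} (h : ∀ z, z ∈ S ↔ ∃ i, c * z = b i) :
    (fun e => c * p e) ⁻¹' (Pl b) = p ⁻¹' (S : Set ℂ)ᶜ := by
  ext e
  simp only [mem_preimage, Pl, mem_ofPred_eq, mem_compl_iff, Finset.mem_coe, h, not_exists, ne_eq]

end Groth.Agent.Pi1.H147.Rot
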