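import Mathlib.Topology.Homotopy.Lifting
import Mathlib.Topology.Connected.LocallyPathConnected

/-!
# Sections of covering maps over simply connected subsets

`p : E → T` is a covering map over the open subset `B` of `T`.  Over a subset `A ⊆ B` whose
subtype is simply connected and locally path connected, every point of `E` over `A` lies on
exactly one continuous section over `A`.
-/

set_option autoImplicit false

open Topology Set

namespace Groth.Agent.Pi1.H147.Sec

variable {T E E' : Type*} [TopologicalSpace T] [TopologicalSpace E] [TopologicalSpace E']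
  {p : E → T} {p' : E' → T} {B : Set T}

/-- The subset `A` of `T` is simply connected and locally path connected (as a subspace). -/
structure Good (A : Set T) : Prop where
  sc : SimplyConnectedSpace A
  lpc : LocallyPathConnectedSpace A

theorem exists_sec (hp : IsCoveringMapOn p B) {A : Set T} (hA : Good A) (hAB : A ⊆ B) (e : E)
    (he : p e ∈ A) : ∃! σ : C(A, E), σ ⟨p e, he⟩ = e ∧ p ∘ σ = Subtype.val := by
  have := hA.sc
  have := hA.lpc
  exact hp.existsUnique_continuousMap_lifts (⟨Subtype.val, continuous_subtype_val⟩ : C(A, T))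
    (a₀ := ⟨p e, he⟩) (e₀ := e) rfl (fun a => hAB a.2)

/-- Two continuous sections over a preconnected subset which agree at one point are equal. -/
theorem sec_unique (hp : IsCoveringMapOn p B) {L : Set T} (hL : IsPreconnected L) (hLB : L ⊆ B)
    (σ τ : C(L, E)) (hσ : ∀ z, p (σ z) = z) (hτ : ∀ z, p (τ z) = z) (z₀ : L)
    (h : σ z₀ = τ z₀) : σ = τ := by
  have : PreconnectedSpace L := Subtype.preconnectedSpace hL
  have hc := hp.isCoveringMap_restrictPreimage
  let σ' : L → p ⁻¹' B := fun z => ⟨σ z, by rw [mem_preimage, hσ]; exact hLB z.2⟩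
  let τ' : L → p ⁻¹' B := fun z => ⟨τ z, by rw [mem_preimage, hτ]; exact hLB z.2⟩
  have h1 : σ' = τ' := hc.eq_of_comp_eq (A := L) (g₁ := σ') (g₂ := τ')
    (by exact Continuous.subtype_mk σ.continuous _)
    (by exact Continuous.subtype_mk τ.continuous _)
    (by
      funext z
      apply Subtype.ext
      change p (σ z) = p (τ z)
      rw [hσ, hτ]) z₀ (Subtype.ext h)
  ext z
  exact congrArg Subtype.val (congrFun h1 z)

theorem isOpen_preimage (hp : IsCoveringMapOn p B) {U : Set T} (hU : IsOpen U) (hUB : U ⊆ B) :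
    IsOpen (p ⁻¹' U) := by
  rw [isOpen_iff_mem_nhds]
  intro x hx
  exact (hp.continuousAt (hUB hx)).preimage_mem_nhds (hU.mem_nhds hx)

/-- The image of an open set under a continuous section over an open set is open. -/
theorem isOpen_image_sec (hp : IsCoveringMapOn p B) {A : Set T} (hA : IsOpen A) (hAB : A ⊆ B)
    (σ : C(A, E)) (hσ : ∀ z, p (σ z) = z) {V : Set A} (hV : IsOpen V) : IsOpen (σ '' V) := by
  rw [isOpen_iff_mem_nhds]
  rintro _ ⟨z, hz, rfl⟩
  have h1 : p (σ z) ∈ B := by rw [hσ]; exact hAB z.2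
  -- `p` is a local homeomorphism at `σ z`
  obtain ⟨φ, hφ1, hφ2⟩ := hp.isLocalHomeomorphOn (σ z) h1
  -- the set of `z' ∈ V` with `σ z' ∈ φ.source`
  have h2 : IsOpen (V ∩ σ ⁻¹' φ.source) := hV.inter (φ.open_source.preimage σ.continuous)
  have h3 : IsOpen ((Subtype.val : A → T) '' (V ∩ σ ⁻¹' φ.source)) := hA.isOpenMap_subtype_val _ h2
  have h4 : φ.source ∩ φ ⁻¹' ((Subtype.val : A → T) '' (V ∩ σ ⁻¹' φ.source)) ∈ 𝓝 (σ z) := by
    refine (φ.isOpen_inter_preimage h3).mem_nhds ⟨hφ1, z, ⟨hz, hφ1⟩, ?_⟩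
    have := congrFun hφ2 (σ z)
    rw [← this, hσ]
  refine Filter.mem_of_superset h4 ?_
  rintro y ⟨hy1, z', ⟨hz1, hz2⟩, hz3⟩
  refine ⟨z', hz1, ?_⟩
  refine φ.injOn hz2 hy1 ?_
  rw [← hz3, ← congrFun hφ2 (σ z'), hσ]

section sec

variable (hp : IsCoveringMapOn p B) {A : Set T} (hA : Good A) (hAB : A ⊆ B)

/-- The continuous section over `A` through the point `e`. -/
noncomputable def sec (e : E) (he : p e ∈ A) : C(A, E) := (exists_sec hp hA hAB e he).choose

@[simp] theorem sec_self (e : E) (he : p e ∈ A) : sec hp hA hAB e he ⟨p e, he⟩ = e :=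
  (exists_sec hp hA hAB e he).choose_spec.1.1

theorem p_sec (e : E) (he : p e ∈ A) (z : A) : p (sec hp hA hAB e he z) = z :=
  congrFun (exists_sec hp hA hAB e he).choose_spec.1.2 z

theorem sec_eq (e : E) (he : p e ∈ A) (σ : C(A, E)) (hσ : ∀ z, p (σ z) = z)
    (h : σ ⟨p e, he⟩ = e) : σ = sec hp hA hAB e he :=
  (exists_sec hp hA hAB e he).choose_spec.2 σ ⟨h, funext hσ⟩

theorem sec_eq' (e : E) (he : p e ∈ A) (σ : C(A, E)) (hσ : ∀ z, p (σ z) = z) (z : A)
    (h : σ z = sec hp hA hAB e he z) : σ = sec hp hA hAB e he := by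
  have := hA.sc
  exact sec_unique hp (isPreconnected_iff_preconnectedSpace.mpr inferInstance) hAB σ _ hσ
    (p_sec hp hA hAB e he) z h

omit [TopologicalSpace T] [TopologicalSpace E] in
theorem mem_of {x : T} (hx : x ∈ A) (e : p ⁻¹' {x}) : p e.1 ∈ A := by
  have h : p e.1 = x := e.2
  rw [h]
  exact hx

/-- Transport from the fibre over `x` to the fibre over `y`, for `x`, `y` in `A`. -/
noncomputable def tr {x y : T} (hx : x ∈ A) (hy : y ∈ A) (e : p ⁻¹' {x}) : p ⁻¹' {y} :=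
  ⟨sec hp hA hAB e.1 (mem_of hx e) ⟨y, hy⟩, p_sec hp hA hAB _ _ _⟩

theorem tr_val {x y : T} (hx : x ∈ A) (hy : y ∈ A) (e : p ⁻¹' {x}) :
    (tr hp hA hAB hx hy e).1 = sec hp hA hAB e.1 (mem_of hx e) ⟨y, hy⟩ := rfl

theorem sec_congr {z z' : A} (h : z.1 = z'.1) (e : E) (he : p e ∈ A) :
    sec hp hA hAB e he z = sec hp hA hAB e he z' := by
  rw [Subtype.ext h]

theorem sec_tr {x y : T} (hx : x ∈ A) (hy : y ∈ A) (e : p ⁻¹' {x}) :
    sec hp hA hAB (tr hp hA hAB hx hy e).1 (mem_of hy _) =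
      sec hp hA hAB e.1 (mem_of hx e) := by
  symm
  apply sec_eq
  · exact p_sec hp hA hAB _ _
  · have h : p (tr hp hA hAB hx hy e).1 = y := (tr hp hA hAB hx hy e).2
    exact sec_congr hp hA hAB h _ _

@[simp] theorem tr_tr {x y z : T} (hx : x ∈ A) (hy : y ∈ A) (hz : z ∈ A) (e : p ⁻¹' {x}) :
    tr hp hA hAB hy hz (tr hp hA hAB hx hy e) = tr hp hA hAB hx hz e := by
  apply Subtype.ext
  exact congrArg (fun f : C(A, E) => f ⟨z, hz⟩) (sec_tr hp hA hAB hx hy e)

@[simp] theorem tr_self {x : T} (hx : x ∈ A) (e : p ⁻¹' {x}) :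
    tr hp hA hAB hx hx e = e := by
  apply Subtype.ext
  have h : p e.1 = x := e.2
  have h1 := sec_self hp hA hAB e.1 (mem_of hx e)
  exact (sec_congr hp hA hAB h.symm _ _).trans h1

/-- Transport as an equivalence. -/
noncomputable def trEquiv {x y : T} (hx : x ∈ A) (hy : y ∈ A) : p ⁻¹' {x} ≃ p ⁻¹' {y} where
  toFun := tr hp hA hAB hx hy
  invFun := tr hp hA hAB hy hx
  left_inv e := by simp
  right_inv e := by simp

@[simp] theorem trEquiv_apply {x y : T} (hx : x ∈ A) (hy : y ∈ A) (e : p ⁻¹' {x}) :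
    trEquiv hp hA hAB hx hy e = tr hp hA hAB hx hy e := rfl

@[simp] theorem trEquiv_symm_apply {x y : T} (hx : x ∈ A) (hy : y ∈ A) (e : p ⁻¹' {y}) :
    (trEquiv hp hA hAB hx hy).symm e = tr hp hA hAB hy hx e := rfl

/-- Transport depends only on a connected set: if `L ⊆ A ∩ A'` is preconnected and contains `x`
and `y`, the transports along `A` and `A'` from `x` to `y` agree. -/
theorem tr_eq_tr {A' : Set T} (hA' : Good A') (hAB' : A' ⊆ B) {L : Set T} (hL : IsPreconnected L)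
    (h1 : L ⊆ A) (h2 : L ⊆ A') {x y : T} (hx : x ∈ L) (hy : y ∈ L) (e : p ⁻¹' {x}) :
    tr hp hA hAB (h1 hx) (h1 hy) e = tr hp hA' hAB' (h2 hx) (h2 hy) e := by
  have he : p e.1 = x := e.2
  have hx1 : p e.1 ∈ A := by rw [he]; exact h1 hx
  have hx2 : p e.1 ∈ A' := by rw [he]; exact h2 hx
  let σ : C(L, E) := (sec hp hA hAB e.1 hx1).comp ⟨Set.inclusion h1, continuous_inclusion h1⟩
  let τ : C(L, E) := (sec hp hA' hAB' e.1 hx2).comp ⟨Set.inclusion h2, continuous_inclusion h2⟩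
  have hστ : σ = τ := by
    refine sec_unique hp hL (h1.trans hAB) σ τ (fun z => p_sec hp hA hAB _ _ _)
      (fun z => p_sec hp hA' hAB' _ _ _) ⟨x, hx⟩ ?_
    change sec hp hA hAB e.1 hx1 ⟨x, h1 hx⟩ = sec hp hA' hAB' e.1 hx2 ⟨x, h2 hx⟩
    have e1 : (⟨x, h1 hx⟩ : A) = ⟨p e.1, hx1⟩ := Subtype.ext he.symm
    have e2 : (⟨x, h2 hx⟩ : A') = ⟨p e.1, hx2⟩ := Subtype.ext he.symm
    rw [e1, e2, sec_self, sec_self]
  apply Subtype.ext
  exact congrArg (fun f : C(L, E) => f ⟨y, hy⟩) hστ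

end sec

/-- Naturality of sections. -/
theorem map_sec (hp : IsCoveringMapOn p B) (hp' : IsCoveringMapOn p' B) {A : Set T} (hA : Good A)
    (hAB : A ⊆ B) (φ : E → E') (hφ : ContinuousOn φ (p ⁻¹' B)) (hφp : ∀ e, p e ∈ B → p' (φ e) = p e)
    (e : E) (he : p e ∈ A) (z : A) :
    φ (sec hp hA hAB e he z) =
      sec hp' hA hAB (φ e) (by rw [hφp e (hAB he)]; exact he) z := by
  let σ : C(A, E') := ⟨fun z => φ (sec hp hA hAB e he z), by
    refine hφ.comp_continuous (sec hp hA hAB e he).continuous fun z => ?_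
    rw [mem_preimage, p_sec hp hA hAB]
    exact hAB z.2⟩
  have h1 : σ = sec hp' hA hAB (φ e) (by rw [hφp e (hAB he)]; exact he) := by
    apply sec_eq
    · intro z
      change p' (φ _) = z
      rw [hφp _ (by rw [p_sec hp hA hAB]; exact hAB z.2), p_sec hp hA hAB]
    · change φ (sec hp hA hAB e he _) = φ e
      congr 1
      have : (⟨p' (φ e), by rw [hφp e (hAB he)]; exact he⟩ : A) = ⟨p e, he⟩ :=
        Subtype.ext (hφp e (hAB he))
      rw [this, sec_self]
  exact congrArg (fun f : C(A, E') => f z) h1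

/-- Naturality of transport. -/
theorem map_tr (hp : IsCoveringMapOn p B) (hp' : IsCoveringMapOn p' B) {A : Set T} (hA : Good A)
    (hAB : A ⊆ B) (φ : E → E') (hφ : ContinuousOn φ (p ⁻¹' B)) (hφp : ∀ e, p e ∈ B → p' (φ e) = p e)
    {x y : T} (hx : x ∈ A) (hy : y ∈ A) (e : p ⁻¹' {x}) (e' : p' ⁻¹' {x}) (he : φ e.1 = e'.1) :
    φ (tr hp hA hAB hx hy e).1 = (tr hp' hA hAB hx hy e').1 := by
  rw [tr_val, map_sec hp hp' hA hAB φ hφ hφp, tr_val]
  have : ∀ (u v : E') (hu : p' u ∈ A) (hv : p' v ∈ A) (_ : u = v),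
      sec hp' hA hAB u hu ⟨y, hy⟩ = sec hp' hA hAB v hv ⟨y, hy⟩ := by
    rintro u v hu hv rfl
    rfl
  exact this _ _ _ _ he

end Groth.Agent.Pi1.H147.Sec
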