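import Groth.Agent.Pi1.H147.Sec
import Mathlib.Analysis.Complex.Basic
import Mathlib.Analysis.Convex.PathConnected
import Mathlib.Analysis.Complex.Convex
import Mathlib.Analysis.Convex.Topology
import Mathlib.AlgebraicTopology.FundamentalGroupoid.SimplyConnected
import Mathlib.Topology.Homotopy.Contractible
import Mathlib.Order.Fin.Basic
import Mathlib.Analysis.LocallyConvex.WithSeminorms

/-!
# Slit planes

`b : Fin n → ℂ` points with strictly increasing real parts.  `Half s b` (`s = ±1`) is the
complement of the vertical slits going down (`s = 1`) or up (`s = -1`) from the points `b i`.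
-/

set_option autoImplicit false

open Topology Set

namespace Groth.Agent.Pi1.H147.Slit

open Groth.Agent.Pi1.H147.Sec

variable {n : ℕ} (b : Fin n → ℂ)

/-- The complement of the slits. -/
def Half (s : ℝ) : Set ℂ := {z | ∀ i, z.re = (b i).re → s * (b i).im < s * z.im}

/-- The plane minus the points `b i`. -/
def Pl : Set ℂ := {z | ∀ i, z ≠ b i}

/-- The `j`-th vertical strip. -/
def Strip (j : Fin (n + 1)) : Set ℂ :=
  {z | (∀ i : Fin n, i.castSucc < j → (b i).re < z.re) ∧
    (∀ i : Fin n, j ≤ i.castSucc → z.re < (b i).re)}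

theorem isOpen_half (s : ℝ) : IsOpen (Half b s) := by
  have h : (Half b s)ᶜ = ⋃ i, {z : ℂ | z.re = (b i).re} ∩ {z : ℂ | s * z.im ≤ s * (b i).im} := by
    ext z
    simp only [Half, mem_compl_iff, mem_ofPred_eq, not_forall, not_lt, mem_iUnion, mem_inter_iff,
      exists_prop]
  rw [← isClosed_compl_iff, h]
  refine isClosed_iUnion_of_finite fun i => IsClosed.inter ?_ ?_
  · exact isClosed_eq Complex.continuous_re continuous_const
  · exact isClosed_le (continuous_const.mul Complex.continuous_im) continuous_const

theorem isOpen_pl : IsOpen (Pl b) := by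
  have h : (Pl b)ᶜ = ⋃ i, {b i} := by
    ext z
    simp [Pl, eq_comm]
  rw [← isClosed_compl_iff, h]
  exact isClosed_iUnion_of_finite fun i => isClosed_singleton

theorem half_subset_pl (s : ℝ) : Half b s ⊆ Pl b := by
  intro z hz i h
  have := hz i (by rw [h])
  rw [h] at this
  exact lt_irrefl _ this

theorem half_union_half (hb : StrictMono fun i => (b i).re) : Half b 1 ∪ Half b (-1) = Pl b := by
  refine subset_antisymm (union_subset (half_subset_pl b 1) (half_subset_pl b (-1))) ?_
  intro z hz
  by_cases h : ∃ i, z.re = (b i).re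
  · obtain ⟨i, hi⟩ := h
    have huniq : ∀ j, z.re = (b j).re → j = i := fun j hj => hb.injective (hj.symm.trans hi)
    have him : z.im ≠ (b i).im := fun him => hz i (Complex.ext hi him)
    rcases lt_or_gt_of_ne him with h1 | h1
    · right
      intro j hj
      rw [huniq j hj]
      linarith
    · left
      intro j hj
      rw [huniq j hj]
      linarith
  · left
    intro j hj
    exact absurd ⟨j, hj⟩ h

theorem strip_subset_half (s : ℝ) (j : Fin (n + 1)) : Strip b j ⊆ Half b s := by
  intro z hz i hi
  exfalso
  rcases lt_or_ge i.castSucc j with h | h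
  · exact absurd hi (ne_of_gt (hz.1 i h))
  · exact absurd hi (ne_of_lt (hz.2 i h))

theorem half_inter_half (hb : StrictMono fun i => (b i).re) :
    Half b 1 ∩ Half b (-1) ⊆ ⋃ j, Strip b j := by
  rintro z ⟨h1, h2⟩
  have hne : ∀ i, z.re ≠ (b i).re := by
    intro i hi
    have := h1 i hi
    have := h2 i hi
    linarith
  -- the number of `i` with `re (b i) < re z`
  by_cases h : ∃ i : Fin n, z.re < (b i).re
  · classical
    let i₀ := (Finset.univ.filter fun i : Fin n => z.re < (b i).re).min'
      (by obtain ⟨i, hi⟩ := h; exact ⟨i, by simpa using hi⟩)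
    have hi₀ : z.re < (b i₀).re := by
      have := Finset.min'_mem (Finset.univ.filter fun i : Fin n => z.re < (b i).re)
        (by obtain ⟨i, hi⟩ := h; exact ⟨i, by simpa using hi⟩)
      simpa using (Finset.mem_filter.1 this).2
    have hmin : ∀ i, z.re < (b i).re → i₀ ≤ i := fun i hi =>
      Finset.min'_le _ i (by simpa using hi)
    refine mem_iUnion.2 ⟨i₀.castSucc, ?_, ?_⟩
    · intro i hi
      rcases lt_trichotomy z.re (b i).re with h3 | h3 | h3
      · exact absurd (hmin i h3) (not_le.2 (Fin.castSucc_lt_castSucc_iff.1 hi))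
      · exact absurd h3 (hne i)
      · exact h3
    · intro i hi
      exact hi₀.trans_le (hb.monotone (Fin.castSucc_le_castSucc_iff.1 hi))
  · push Not at h
    refine mem_iUnion.2 ⟨Fin.last n, ?_, ?_⟩
    · intro i _
      exact lt_of_le_of_ne (h i) (hne i).symm
    · intro i hi
      exact absurd hi (not_le.2 (Fin.castSucc_lt_last i))

theorem convex_strip (j : Fin (n + 1)) : Convex ℝ (Strip b j) := by
  have h : Strip b j = (⋂ (i : Fin n) (_ : i.castSucc < j), {z : ℂ | (b i).re < z.re}) ∩
      (⋂ (i : Fin n) (_ : j ≤ i.castSucc), {z : ℂ | z.re < (b i).re}) := by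
    ext z
    simp [Strip]
  rw [h]
  refine Convex.inter ?_ ?_
  · exact convex_iInter fun i => convex_iInter fun _ => convex_halfSpace_re_gt _
  · exact convex_iInter fun i => convex_iInter fun _ => convex_halfSpace_re_lt _

theorem isPreconnected_strip (j : Fin (n + 1)) : IsPreconnected (Strip b j) :=
  (convex_strip b j).isPreconnected

theorem strip_nonempty (hb : StrictMono fun i => (b i).re) (j : Fin (n + 1)) :
    (Strip b j).Nonempty := by
  -- choose a real number in the gap
  obtain ⟨x, hx1, hx2⟩ : ∃ x : ℝ, (∀ i : Fin n, i.castSucc < j → (b i).re < x) ∧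
      (∀ i : Fin n, j ≤ i.castSucc → x < (b i).re) := by
    rcases Nat.eq_zero_or_pos n with hn | hn
    · subst hn
      exact ⟨0, fun i => i.elim0, fun i => i.elim0⟩
    induction j using Fin.cases with
    | zero =>
      let i₀ : Fin n := ⟨0, hn⟩
      refine ⟨(b i₀).re - 1, fun i hi => absurd hi (not_lt.2 (Fin.zero_le _)), fun i _ => ?_⟩
      have : (b i₀).re ≤ (b i).re := hb.monotone (Fin.mk_le_of_le_val (Nat.zero_le _))
      linarith
    | succ k =>
      by_cases hk : (k : ℕ) + 1 < n
      · let k' : Fin n := ⟨k + 1, hk⟩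
        have h1 : (b k).re < (b k').re := hb (by
          rw [Fin.lt_def]
          exact Nat.lt_succ_self _)
        refine ⟨((b k).re + (b k').re) / 2, fun i hi => ?_, fun i hi => ?_⟩
        · have h2 : i ≤ k := by
            rw [Fin.lt_def] at hi
            rw [Fin.le_def]
            simpa using Nat.le_of_lt_succ hi
          have : (b i).re ≤ (b k).re := hb.monotone h2
          linarith
        · have h2 : k' ≤ i := by
            rw [Fin.le_def] at hi ⊢
            simp only [Fin.val_succ, Fin.val_castSucc] at hi
            exact hi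
          have : (b k').re ≤ (b i).re := hb.monotone h2
          linarith
      · refine ⟨(b k).re + 1, fun i hi => ?_, fun i hi => ?_⟩
        · have h2 : i ≤ k := by
            rw [Fin.lt_def] at hi
            rw [Fin.le_def]
            simpa using Nat.le_of_lt_succ hi
          have : (b i).re ≤ (b k).re := hb.monotone h2
          linarith
        · exfalso
          rw [Fin.le_def] at hi
          have h3 := i.2
          simp only [Fin.val_succ, Fin.val_castSucc] at hi
          omega
  exact ⟨(x : ℂ), fun i hi => by simpa using hx1 i hi, fun i hi => by simpa using hx2 i hi⟩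

/-! ### contractibility -/

section contr

variable (s : ℝ) (hs : s * s = 1) (M : ℝ) (hM : ∀ i, s * (b i).im < M) (hM0 : 0 ≤ M)

include hs in
theorem abs_s : |s| = 1 := by
  have h : |s| * |s| = 1 := by rw [← abs_mul, hs, abs_one]
  nlinarith [abs_nonneg s]

include hM in
theorem mem_half_of_le (z : ℂ) (hz : M ≤ s * z.im) : z ∈ Half b s := fun i _ => (hM i).trans_le hz

include hs hM hM0 in
theorem contractible_half : ContractibleSpace (Half b s) := by
  rw [contractible_iff_id_nullhomotopic]
  let c : ℂ := ⟨0, s * M⟩
  have hc : c ∈ Half b s := mem_half_of_le b s M hM c (by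
    change M ≤ s * (s * M)
    rw [← mul_assoc, hs, one_mul])
  refine ⟨⟨c, hc⟩, ?_⟩
  -- intermediate map
  let m : ℂ → ℂ := fun z => z + ((s * (M + |z.im|) : ℝ) : ℂ) * Complex.I
  have hm_cont : Continuous m := by
    refine continuous_id.add (Continuous.mul ?_ continuous_const)
    exact Complex.continuous_ofReal.comp
      (continuous_const.mul (continuous_const.add Complex.continuous_im.abs))
  have hre : ∀ (t : ℝ) (z : ℂ), (z + ((t * (s * (M + |z.im|)) : ℝ) : ℂ) * Complex.I).re = z.re := by
    intro t z
    simp
  have him : ∀ (t : ℝ) (z : ℂ), (z + ((t * (s * (M + |z.im|)) : ℝ) : ℂ) * Complex.I).im =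
      z.im + t * (s * (M + |z.im|)) := by
    intro t z
    simp
  have h1 : ∀ (t : ℝ), 0 ≤ t → ∀ z ∈ Half b s,
      z + ((t * (s * (M + |z.im|)) : ℝ) : ℂ) * Complex.I ∈ Half b s := by
    intro t ht z hz i hi
    rw [hre] at hi
    rw [him]
    have h2 := hz i hi
    have h3 : 0 ≤ t * (M + |z.im|) := mul_nonneg ht (add_nonneg hM0 (abs_nonneg _))
    have h4 : s * (z.im + t * (s * (M + |z.im|))) = s * z.im + (s * s) * (t * (M + |z.im|)) := by ring
    rw [h4, hs, one_mul]
    linarith
  have habs : ∀ z : ℂ, 0 ≤ s * z.im + |z.im| := by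
    intro z
    have := abs_mul s z.im
    rw [abs_s s hs, one_mul] at this
    have h5 := neg_abs_le (s * z.im)
    linarith
  have hmem : ∀ z, M ≤ s * (m z).im := by
    intro z
    have : (m z).im = z.im + s * (M + |z.im|) := by
      simp [m]
    rw [this]
    have h4 : s * (z.im + s * (M + |z.im|)) = s * z.im + (s * s) * (M + |z.im|) := by ring
    rw [h4, hs, one_mul]
    linarith [habs z]
  let g : C(Half b s, Half b s) :=
    ⟨fun z => ⟨m z, mem_half_of_le b s M hM _ (hmem z)⟩,
      (hm_cont.comp continuous_subtype_val).subtype_mk _⟩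
  refine ContinuousMap.Homotopic.trans (g := g) ⟨?_⟩ ⟨?_⟩
  · refine
      { toFun := fun x => ⟨x.2.1 + (((x.1 : ℝ) * (s * (M + |x.2.1.im|)) : ℝ) : ℂ) * Complex.I,
          h1 x.1 x.1.2.1 x.2.1 x.2.2⟩
        continuous_toFun := ?_
        map_zero_left := ?_
        map_one_left := ?_ }
    · refine Continuous.subtype_mk ?_ _
      have hx1 : Continuous fun x : unitInterval × Half b s => ((x.1 : ℝ)) :=
        continuous_subtype_val.comp continuous_fst
      have hx2 : Continuous fun x : unitInterval × Half b s => (x.2.1 : ℂ) :=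
        continuous_subtype_val.comp continuous_snd
      refine hx2.add (Continuous.mul ?_ continuous_const)
      exact Complex.continuous_ofReal.comp (hx1.mul (continuous_const.mul
        (continuous_const.add (Complex.continuous_im.comp hx2).abs)))
    · intro z
      apply Subtype.ext
      simp
    · intro z
      apply Subtype.ext
      simp [g, m]
  · refine
      { toFun := fun x => ⟨(((1 - (x.1 : ℝ)) : ℝ) : ℂ) * m x.2.1 + (((x.1 : ℝ)) : ℂ) * c, ?_⟩
        continuous_toFun := ?_
        map_zero_left := ?_
        map_one_left := ?_ }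
    · refine mem_half_of_le b s M hM _ ?_
      have h6 := hmem x.2.1
      have h7 : 0 ≤ (x.1 : ℝ) := x.1.2.1
      have h8 : (x.1 : ℝ) ≤ 1 := x.1.2.2
      have h9 : ((((1 - (x.1 : ℝ)) : ℝ) : ℂ) * m x.2.1 + (((x.1 : ℝ)) : ℂ) * c).im =
          (1 - (x.1 : ℝ)) * (m x.2.1).im + (x.1 : ℝ) * (s * M) := by
        simp only [Complex.add_im, Complex.mul_im, Complex.ofReal_re, Complex.ofReal_im, zero_mul,
          add_zero, c]
      rw [h9]
      have h10 : s * ((1 - (x.1 : ℝ)) * (m x.2.1).im + (x.1 : ℝ) * (s * M)) =
          (1 - (x.1 : ℝ)) * (s * (m x.2.1).im) + (x.1 : ℝ) * ((s * s) * M) := by ring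
      rw [h10, hs, one_mul]
      nlinarith
    · refine Continuous.subtype_mk ?_ _
      have hx1 : Continuous fun x : unitInterval × Half b s => ((x.1 : ℝ)) :=
        continuous_subtype_val.comp continuous_fst
      have hx2 : Continuous fun x : unitInterval × Half b s => (x.2.1 : ℂ) :=
        continuous_subtype_val.comp continuous_snd
      exact ((Complex.continuous_ofReal.comp (continuous_const.sub hx1)).mul
        (hm_cont.comp hx2)).add ((Complex.continuous_ofReal.comp hx1).mul continuous_const)
    · intro z
      apply Subtype.ext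
      simp [g]
    · intro z
      apply Subtype.ext
      simp

end contr

theorem good_half (s : ℝ) (hs : s * s = 1) : Good (Half b s) := by
  obtain ⟨M, hM0, hM⟩ : ∃ M : ℝ, 0 ≤ M ∧ ∀ i, s * (b i).im < M := by
    rcases (Set.finite_range fun i => s * (b i).im).bddAbove with ⟨M, hM⟩
    refine ⟨max M 0 + 1, by positivity, fun i => ?_⟩
    have := hM ⟨i, rfl⟩
    simp only at this
    exact lt_of_le_of_lt (this.trans (le_max_left M 0)) (lt_add_one _)
  have := contractible_half b s hs M hM hM0
  exact ⟨inferInstance, (isOpen_half b s).locallyPathConnectedSpace⟩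

end Groth.Agent.Pi1.H147.Slit
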