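import Groth.Agent.Pi1.H147.Sec
import Mathlib.GroupTheory.GroupAction.Defs
import Mathlib.Algebra.Group.Subgroup.Lattice
import Mathlib.Algebra.Group.Action.End
import Mathlib.GroupTheory.GroupAction.Hom

/-!
# Coverings of a union of two simply connected sets

`p : E → T` a covering map over `B ⊇ A₁ ∪ A₂`, with `A₁`, `A₂` simply connected.  The transition
permutations `g w` (`w ∈ A₁ ∩ A₂`) of the fibre over `z₀ ∈ A₁ ∩ A₂` (go from `z₀` to `w` inside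
`A₁`, come back inside `A₂`) describe the components of `E` over `D₁ ∪ D₂`, `D₁ ⊆ A₁`, `D₂ ⊆ A₂`
connected.
-/

set_option autoImplicit false

open Topology Set

namespace Groth.Agent.Pi1.H147.TwoChart

open Groth.Agent.Pi1.H147.Sec

variable {T E E' : Type*} [TopologicalSpace T] [TopologicalSpace E] [TopologicalSpace E']
  {p : E → T} {p' : E' → T} {B : Set T}

theorem perm_apply_inv {α : Type*} (σ : Equiv.Perm α) (a : α) : σ (σ⁻¹ a) = a := σ.apply_symm_apply a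

theorem perm_inv_apply {α : Type*} (σ : Equiv.Perm α) (a : α) : σ⁻¹ (σ a) = a := σ.symm_apply_apply a

section img

variable (hp : IsCoveringMapOn p B) {A : Set T} (hA : Good A) (hAB : A ⊆ B)
  {z₀ : T} (hz₀ : z₀ ∈ A)

/-- The part over `D` of the section over `A` through the point `e` over `z₀`. -/
def Img (e : p ⁻¹' {z₀}) (D : Set T) : Set E :=
  {x | ∃ (z : T) (hz : z ∈ A), z ∈ D ∧ (tr hp hA hAB hz₀ hz e).1 = x}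

theorem img_eq_image (e : p ⁻¹' {z₀}) (D : Set T) :
    Img hp hA hAB hz₀ e D =
      sec hp hA hAB e.1 (mem_of hz₀ e) '' {z : A | z.1 ∈ D} := by
  ext x
  constructor
  · rintro ⟨z, hz, hzD, rfl⟩
    exact ⟨⟨z, hz⟩, hzD, rfl⟩
  · rintro ⟨z, hzD, rfl⟩
    exact ⟨z.1, z.2, hzD, rfl⟩

theorem isOpen_img (hAo : IsOpen A) (e : p ⁻¹' {z₀}) {D : Set T} (hD : IsOpen D) :
    IsOpen (Img hp hA hAB hz₀ e D) := by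
  rw [img_eq_image]
  exact isOpen_image_sec hp hAo hAB _ (p_sec hp hA hAB _ _) (hD.preimage continuous_subtype_val)

theorem isPreconnected_img (e : p ⁻¹' {z₀}) {D : Set T} (hD : IsPreconnected D) (hDA : D ⊆ A) :
    IsPreconnected (Img hp hA hAB hz₀ e D) := by
  rw [img_eq_image]
  refine IsPreconnected.image ?_ _ (sec hp hA hAB e.1 (mem_of hz₀ e)).continuous.continuousOn
  exact (Topology.IsInducing.subtypeVal.isPreconnected_image).1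
    (by rwa [show (Subtype.val '' {z : A | z.1 ∈ D}) = D from by
          ext z
          constructor
          · rintro ⟨z, hz, rfl⟩
            exact hz
          · exact fun hz => ⟨⟨z, hDA hz⟩, hz, rfl⟩])

theorem mem_img_iff (e : p ⁻¹' {z₀}) (D : Set T) (x : E) :
    x ∈ Img hp hA hAB hz₀ e D ↔ ∃ h : p x ∈ A, p x ∈ D ∧
      tr hp hA hAB h hz₀ ⟨x, rfl⟩ = e := by
  constructor
  · rintro ⟨z, hz, hzD, rfl⟩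
    have h := p_sec hp hA hAB e.1 (mem_of hz₀ e) ⟨z, hz⟩
    have h' : p (tr hp hA hAB hz₀ hz e).1 = z := h
    refine ⟨by rw [h']; exact hz, by rw [h']; exact hzD, ?_⟩
    have key : ∀ (y : T) (hy : y ∈ A) (u : p ⁻¹' {y}) (h1 : p u.1 ∈ A),
        tr hp hA hAB h1 hz₀ ⟨u.1, rfl⟩ = tr hp hA hAB hy hz₀ u := by
      rintro y hy ⟨u, hu⟩ h1
      obtain rfl : p u = y := hu
      rfl
    rw [key z hz (tr hp hA hAB hz₀ hz e), tr_tr, tr_self]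
  · rintro ⟨h, hD, rfl⟩
    refine ⟨p x, h, hD, ?_⟩
    rw [tr_tr, tr_self]

theorem mem_img_of (x : E) (hx : p x ∈ A) (D : Set T) (hD : p x ∈ D) :
    x ∈ Img hp hA hAB hz₀ (tr hp hA hAB hx hz₀ ⟨x, rfl⟩) D :=
  (mem_img_iff _ _ _ _ _ _ _).2 ⟨hx, hD, rfl⟩

end img

variable (hp : IsCoveringMapOn p B) {A₁ A₂ : Set T} (h₁ : Good A₁) (h₂ : Good A₂)
  (h₁B : A₁ ⊆ B) (h₂B : A₂ ⊆ B) {z₀ : T} (hz₁ : z₀ ∈ A₁) (hz₂ : z₀ ∈ A₂)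

/-- The transition permutation at `w ∈ A₁ ∩ A₂`. -/
noncomputable def g {w : T} (hw₁ : w ∈ A₁) (hw₂ : w ∈ A₂) : Equiv.Perm (p ⁻¹' {z₀}) :=
  (trEquiv hp h₁ h₁B hz₁ hw₁).trans (trEquiv hp h₂ h₂B hw₂ hz₂)

theorem g_apply {w : T} (hw₁ : w ∈ A₁) (hw₂ : w ∈ A₂) (e : p ⁻¹' {z₀}) :
    g hp h₁ h₂ h₁B h₂B hz₁ hz₂ hw₁ hw₂ e =
      tr hp h₂ h₂B hw₂ hz₂ (tr hp h₁ h₁B hz₁ hw₁ e) := rfl

theorem g_self : g hp h₁ h₂ h₁B h₂B hz₁ hz₂ hz₁ hz₂ = 1 := by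
  ext e : 1
  simp [g_apply]

/-- The transition permutation is constant on preconnected subsets of `A₁ ∩ A₂`. -/
theorem g_eq {L : Set T} (hL : IsPreconnected L) (hL₁ : L ⊆ A₁) (hL₂ : L ⊆ A₂) {w w' : T}
    (hw : w ∈ L) (hw' : w' ∈ L) :
    g hp h₁ h₂ h₁B h₂B hz₁ hz₂ (hL₁ hw) (hL₂ hw) =
      g hp h₁ h₂ h₁B h₂B hz₁ hz₂ (hL₁ hw') (hL₂ hw') := by
  ext e : 1
  rw [g_apply, g_apply]
  have h := tr_eq_tr hp h₁ h₁B h₂ h₂B hL hL₁ hL₂ hw hw' (tr hp h₁ h₁B hz₁ (hL₁ hw) e)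
  rw [tr_tr] at h
  rw [h, tr_tr]

/-- Naturality of the transition permutations. -/
theorem map_g (hp' : IsCoveringMapOn p' B) (φ : E → E') (hφ : ContinuousOn φ (p ⁻¹' B))
    (hφp : ∀ e, p e ∈ B → p' (φ e) = p e) {w : T} (hw₁ : w ∈ A₁) (hw₂ : w ∈ A₂)
    (e : p ⁻¹' {z₀}) (e' : p' ⁻¹' {z₀}) (he : φ e.1 = e'.1) :
    φ (g hp h₁ h₂ h₁B h₂B hz₁ hz₂ hw₁ hw₂ e).1 =
      (g hp' h₁ h₂ h₁B h₂B hz₁ hz₂ hw₁ hw₂ e').1 := by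
  rw [g_apply, g_apply]
  exact map_tr hp hp' h₂ h₂B φ hφ hφp _ _ _ _ (map_tr hp hp' h₁ h₁B φ hφ hφp _ _ _ _ he)

section comp

variable {J : Type*} (L : J → Set T) (w : J → T) (hw : ∀ j, w j ∈ L j) (hL : ∀ j, IsPreconnected (L j))
  (hL₁ : ∀ j, L j ⊆ A₁) (hL₂ : ∀ j, L j ⊆ A₂) (j₀ : J)

/-- The group generated by the `(g j₀)⁻¹ * g j`. -/
noncomputable def grp : Subgroup (Equiv.Perm (p ⁻¹' {z₀})) :=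
  Subgroup.closure (Set.range fun j =>
    (g hp h₁ h₂ h₁B h₂B hz₁ hz₂ (hL₁ j₀ (hw j₀)) (hL₂ j₀ (hw j₀)))⁻¹ *
      g hp h₁ h₂ h₁B h₂B hz₁ hz₂ (hL₁ j (hw j)) (hL₂ j (hw j)))

/-- One piece: the section over `D₁` through `e` and the section over `D₂` through `g j₀ e`. -/
def piece (D₁ D₂ : Set T) (e : p ⁻¹' {z₀}) : Set E :=
  Img hp h₁ h₁B hz₁ e D₁ ∪
    Img hp h₂ h₂B hz₂ (g hp h₁ h₂ h₁B h₂B hz₁ hz₂ (hL₁ j₀ (hw j₀)) (hL₂ j₀ (hw j₀)) e) D₂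

theorem piece_mono {D₁ D₂ D₁' D₂' : Set T} (hD₁ : D₁' ⊆ D₁) (hD₂ : D₂' ⊆ D₂) (e : p ⁻¹' {z₀}) :
    piece hp h₁ h₂ h₁B h₂B hz₁ hz₂ L w hw hL₁ hL₂ j₀ D₁' D₂' e ⊆
      piece hp h₁ h₂ h₁B h₂B hz₁ hz₂ L w hw hL₁ hL₂ j₀ D₁ D₂ e := by
  rintro x (⟨z, hz, hzD, rfl⟩ | ⟨z, hz, hzD, rfl⟩)
  · exact Or.inl ⟨z, hz, hD₁ hzD, rfl⟩
  · exact Or.inr ⟨z, hz, hD₂ hzD, rfl⟩

/-- The component of `p ⁻¹' (D₁ ∪ D₂)` attached to an orbit `o` of `grp` on the fibre. -/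
def comp (D₁ D₂ : Set T)
    (o : MulAction.orbitRel.Quotient
      (grp hp h₁ h₂ h₁B h₂B hz₁ hz₂ L w hw hL₁ hL₂ j₀) (p ⁻¹' {z₀})) : Set E :=
  ⋃ e ∈ {e : p ⁻¹' {z₀} | (Quotient.mk'' e : MulAction.orbitRel.Quotient
      (grp hp h₁ h₂ h₁B h₂B hz₁ hz₂ L w hw hL₁ hL₂ j₀) (p ⁻¹' {z₀})) = o},
    piece hp h₁ h₂ h₁B h₂B hz₁ hz₂ L w hw hL₁ hL₂ j₀ D₁ D₂ e

theorem comp_mono {D₁ D₂ D₁' D₂' : Set T} (hD₁ : D₁' ⊆ D₁) (hD₂ : D₂' ⊆ D₂) (o) :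
    comp hp h₁ h₂ h₁B h₂B hz₁ hz₂ L w hw hL₁ hL₂ j₀ D₁' D₂' o ⊆
      comp hp h₁ h₂ h₁B h₂B hz₁ hz₂ L w hw hL₁ hL₂ j₀ D₁ D₂ o :=
  Set.iUnion₂_mono fun e _ => piece_mono hp h₁ h₂ h₁B h₂B hz₁ hz₂ L w hw hL₁ hL₂ j₀ hD₁ hD₂ e

theorem isOpen_comp (hA₁ : IsOpen A₁) (hA₂ : IsOpen A₂) {D₁ D₂ : Set T} (hD₁ : IsOpen D₁)
    (hD₂ : IsOpen D₂) (o) :
    IsOpen (comp hp h₁ h₂ h₁B h₂B hz₁ hz₂ L w hw hL₁ hL₂ j₀ D₁ D₂ o) :=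
  isOpen_biUnion fun e _ => (isOpen_img hp h₁ h₁B hz₁ hA₁ e hD₁).union
    (isOpen_img hp h₂ h₂B hz₂ hA₂ _ hD₂)

theorem comp_subset (D₁ D₂ : Set T) (o) :
    comp hp h₁ h₂ h₁B h₂B hz₁ hz₂ L w hw hL₁ hL₂ j₀ D₁ D₂ o ⊆ p ⁻¹' (D₁ ∪ D₂) := by
  refine Set.iUnion₂_subset fun e _ => ?_
  rintro x (⟨z, hz, hzD, rfl⟩ | ⟨z, hz, hzD, rfl⟩)
  · exact Or.inl ((p_sec hp h₁ h₁B _ _ _).symm ▸ hzD)
  · exact Or.inr ((p_sec hp h₂ h₂B _ _ _).symm ▸ hzD)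

theorem iUnion_comp {D₁ D₂ : Set T} (hD₁ : D₁ ⊆ A₁) (hD₂ : D₂ ⊆ A₂) :
    ⋃ o, comp hp h₁ h₂ h₁B h₂B hz₁ hz₂ L w hw hL₁ hL₂ j₀ D₁ D₂ o = p ⁻¹' (D₁ ∪ D₂) := by
  refine subset_antisymm (Set.iUnion_subset fun o =>
    comp_subset hp h₁ h₂ h₁B h₂B hz₁ hz₂ L w hw hL₁ hL₂ j₀ D₁ D₂ o) ?_
  rintro x (hx | hx)
  · refine Set.mem_iUnion.2 ⟨Quotient.mk'' (tr hp h₁ h₁B (hD₁ hx) hz₁ ⟨x, rfl⟩), ?_⟩
    exact Set.mem_iUnion₂.2 ⟨_, rfl, Or.inl (mem_img_of hp h₁ h₁B hz₁ x (hD₁ hx) D₁ hx)⟩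
  · set G := g hp h₁ h₂ h₁B h₂B hz₁ hz₂ (hL₁ j₀ (hw j₀)) (hL₂ j₀ (hw j₀)) with hG
    refine Set.mem_iUnion.2 ⟨Quotient.mk'' (G.symm (tr hp h₂ h₂B (hD₂ hx) hz₂ ⟨x, rfl⟩)), ?_⟩
    refine Set.mem_iUnion₂.2 ⟨_, rfl, Or.inr ?_⟩
    rw [← hG, Equiv.apply_symm_apply]
    exact mem_img_of hp h₂ h₂B hz₂ x (hD₂ hx) D₂ hx

include hL in
/-- On `L j`, the sections over `A₁` through `e` and over `A₂` through `g j e` agree. -/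
theorem img_inter {D₁ D₂ : Set T} (e : p ⁻¹' {z₀}) (j : J)
    (hne : (D₁ ∩ D₂ ∩ L j).Nonempty) :
    (Img hp h₁ h₁B hz₁ e D₁ ∩
      Img hp h₂ h₂B hz₂ (g hp h₁ h₂ h₁B h₂B hz₁ hz₂ (hL₁ j (hw j)) (hL₂ j (hw j)) e) D₂).Nonempty := by
  obtain ⟨z, ⟨hz1, hz2⟩, hzL⟩ := hne
  refine ⟨(tr hp h₁ h₁B hz₁ (hL₁ j hzL) e).1, ⟨z, hL₁ j hzL, hz1, rfl⟩, ⟨z, hL₂ j hzL, hz2, ?_⟩⟩
  have h := tr_eq_tr hp h₁ h₁B h₂ h₂B (hL j) (hL₁ j) (hL₂ j) (hw j) hzL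
    (tr hp h₁ h₁B hz₁ (hL₁ j (hw j)) e)
  rw [tr_tr] at h
  rw [g_apply, tr_tr, ← h]

include hL in
theorem img_inter_piece {D₁ D₂ : Set T} (e : p ⁻¹' {z₀}) (j : J)
    (hne : (D₁ ∩ D₂ ∩ L j).Nonempty) :
    (piece hp h₁ h₂ h₁B h₂B hz₁ hz₂ L w hw hL₁ hL₂ j₀ D₁ D₂ e ∩
      piece hp h₁ h₂ h₁B h₂B hz₁ hz₂ L w hw hL₁ hL₂ j₀ D₁ D₂
        (((g hp h₁ h₂ h₁B h₂B hz₁ hz₂ (hL₁ j₀ (hw j₀)) (hL₂ j₀ (hw j₀)))⁻¹ *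
          g hp h₁ h₂ h₁B h₂B hz₁ hz₂ (hL₁ j (hw j)) (hL₂ j (hw j))) e)).Nonempty := by
  obtain ⟨x, hx1, hx2⟩ := img_inter hp h₁ h₂ h₁B h₂B hz₁ hz₂ L w hw hL hL₁ hL₂ e j hne
  refine ⟨x, Or.inl hx1, Or.inr ?_⟩
  rw [Equiv.Perm.mul_apply, perm_apply_inv]
  exact hx2

include hL in
theorem isPreconnected_piece {D₁ D₂ : Set T} (hD₁ : IsPreconnected D₁) (hD₂ : IsPreconnected D₂)
    (h1 : D₁ ⊆ A₁) (h2 : D₂ ⊆ A₂) (hne : ∀ j, (D₁ ∩ D₂ ∩ L j).Nonempty) (e : p ⁻¹' {z₀}) :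
    IsPreconnected (piece hp h₁ h₂ h₁B h₂B hz₁ hz₂ L w hw hL₁ hL₂ j₀ D₁ D₂ e) :=
  IsPreconnected.union' (img_inter hp h₁ h₂ h₁B h₂B hz₁ hz₂ L w hw hL hL₁ hL₂ e j₀ (hne j₀))
    (isPreconnected_img hp h₁ h₁B hz₁ e hD₁ h1) (isPreconnected_img hp h₂ h₂B hz₂ _ hD₂ h2)

include hL in
theorem isPreconnected_comp {D₁ D₂ : Set T} (hD₁ : IsPreconnected D₁) (hD₂ : IsPreconnected D₂)
    (h1 : D₁ ⊆ A₁) (h2 : D₂ ⊆ A₂) (hne : ∀ j, (D₁ ∩ D₂ ∩ L j).Nonempty) (o) :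
    IsPreconnected (comp hp h₁ h₂ h₁B h₂B hz₁ hz₂ L w hw hL₁ hL₂ j₀ D₁ D₂ o) := by
  refine IsPreconnected.biUnion_of_reflTransGen (fun e _ => isPreconnected_piece hp h₁ h₂ h₁B h₂B
    hz₁ hz₂ L w hw hL hL₁ hL₂ j₀ hD₁ hD₂ h1 h2 hne e) ?_
  -- all elements of an orbit are linked
  have key : ∀ (σ : Equiv.Perm (p ⁻¹' {z₀})), σ ∈ grp hp h₁ h₂ h₁B h₂B hz₁ hz₂ L w hw hL₁ hL₂ j₀ → ∀ e : p ⁻¹' {z₀},
      (Quotient.mk'' e : MulAction.orbitRel.Quotient (grp hp h₁ h₂ h₁B h₂B hz₁ hz₂ L w hw hL₁ hL₂ j₀) (p ⁻¹' {z₀})) = o →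
      Relation.ReflTransGen (fun i j : p ⁻¹' {z₀} => (piece hp h₁ h₂ h₁B h₂B hz₁ hz₂ L w hw hL₁ hL₂ j₀ D₁ D₂ i ∩
          piece hp h₁ h₂ h₁B h₂B hz₁ hz₂ L w hw hL₁ hL₂ j₀ D₁ D₂ j).Nonempty ∧
        i ∈ {e : p ⁻¹' {z₀} | (Quotient.mk'' e : MulAction.orbitRel.Quotient (grp hp h₁ h₂ h₁B h₂B hz₁ hz₂ L w hw hL₁ hL₂ j₀) (p ⁻¹' {z₀})) = o})
        e (σ e) := by
    intro σ hσ
    have hmem : ∀ (τ : Equiv.Perm (p ⁻¹' {z₀})), τ ∈ grp hp h₁ h₂ h₁B h₂B hz₁ hz₂ L w hw hL₁ hL₂ j₀ → ∀ e : p ⁻¹' {z₀},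
        (Quotient.mk'' e : MulAction.orbitRel.Quotient (grp hp h₁ h₂ h₁B h₂B hz₁ hz₂ L w hw hL₁ hL₂ j₀) (p ⁻¹' {z₀})) = o →
        (Quotient.mk'' (τ e) : MulAction.orbitRel.Quotient (grp hp h₁ h₂ h₁B h₂B hz₁ hz₂ L w hw hL₁ hL₂ j₀) (p ⁻¹' {z₀})) = o := by
      intro τ hτ e he
      rw [← he]
      refine Quotient.sound' ?_
      change τ e ∈ MulAction.orbit (grp hp h₁ h₂ h₁B h₂B hz₁ hz₂ L w hw hL₁ hL₂ j₀) e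
      exact ⟨⟨τ, hτ⟩, rfl⟩
    induction hσ using Subgroup.closure_induction with
    | mem x hx =>
      obtain ⟨j, rfl⟩ := hx
      intro e he
      refine Relation.ReflTransGen.single ⟨?_, he⟩
      exact img_inter_piece hp h₁ h₂ h₁B h₂B hz₁ hz₂ L w hw hL hL₁ hL₂ j₀ e j (hne j)
    | one => intro e _; exact Relation.ReflTransGen.refl
    | mul x y hx hy ihx ihy =>
      intro e he
      rw [Equiv.Perm.mul_apply]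
      exact (ihy e he).trans (ihx (y e) (hmem y hy e he))
    | inv x hx ihx =>
      intro e he
      have h3 := hmem x⁻¹ ((grp hp h₁ h₂ h₁B h₂B hz₁ hz₂ L w hw hL₁ hL₂ j₀).inv_mem hx) e he
      have h4 := ihx (x⁻¹ e) h3
      rw [perm_apply_inv] at h4
      -- reverse the chain
      have hrev : ∀ a b : p ⁻¹' {z₀}, Relation.ReflTransGen (fun i j : p ⁻¹' {z₀} =>
          (piece hp h₁ h₂ h₁B h₂B hz₁ hz₂ L w hw hL₁ hL₂ j₀ D₁ D₂ i ∩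
          piece hp h₁ h₂ h₁B h₂B hz₁ hz₂ L w hw hL₁ hL₂ j₀ D₁ D₂ j).Nonempty ∧ i ∈ {e : p ⁻¹' {z₀} | (Quotient.mk'' e :
            MulAction.orbitRel.Quotient (grp hp h₁ h₂ h₁B h₂B hz₁ hz₂ L w hw hL₁ hL₂ j₀) (p ⁻¹' {z₀})) = o}) a b →
          (Quotient.mk'' b : MulAction.orbitRel.Quotient (grp hp h₁ h₂ h₁B h₂B hz₁ hz₂ L w hw hL₁ hL₂ j₀) (p ⁻¹' {z₀})) = o →
          Relation.ReflTransGen (fun i j : p ⁻¹' {z₀} => (piece hp h₁ h₂ h₁B h₂B hz₁ hz₂ L w hw hL₁ hL₂ j₀ D₁ D₂ i ∩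
          piece hp h₁ h₂ h₁B h₂B hz₁ hz₂ L w hw hL₁ hL₂ j₀ D₁ D₂ j).Nonempty ∧
            i ∈ {e : p ⁻¹' {z₀} | (Quotient.mk'' e :
              MulAction.orbitRel.Quotient (grp hp h₁ h₂ h₁B h₂B hz₁ hz₂ L w hw hL₁ hL₂ j₀) (p ⁻¹' {z₀})) = o}) b a := by
        intro a b hab
        induction hab with
        | refl => intro _; exact Relation.ReflTransGen.refl
        | tail _ hbc ih =>
          intro hc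
          exact Relation.ReflTransGen.head ⟨by rw [Set.inter_comm]; exact hbc.1, hc⟩ (ih hbc.2)
      exact hrev _ _ h4 he
  intro e he e' he'
  have h5 : (Quotient.mk'' e' : MulAction.orbitRel.Quotient (grp hp h₁ h₂ h₁B h₂B hz₁ hz₂ L w hw hL₁ hL₂ j₀) (p ⁻¹' {z₀})) = Quotient.mk'' e := by
    rw [show (Quotient.mk'' e' : MulAction.orbitRel.Quotient (grp hp h₁ h₂ h₁B h₂B hz₁ hz₂ L w hw hL₁ hL₂ j₀) (p ⁻¹' {z₀})) = o from he']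
    exact (show (Quotient.mk'' e : MulAction.orbitRel.Quotient (grp hp h₁ h₂ h₁B h₂B hz₁ hz₂ L w hw hL₁ hL₂ j₀) (p ⁻¹' {z₀})) = o from he).symm
  have h6 : e' ∈ MulAction.orbit (grp hp h₁ h₂ h₁B h₂B hz₁ hz₂ L w hw hL₁ hL₂ j₀) e := Quotient.exact' h5
  obtain ⟨⟨σ, hσ⟩, rfl⟩ := h6
  exact key σ hσ e he

theorem nonempty_comp {D₁ D₂ : Set T} (h1 : D₁ ⊆ A₁) (hne : D₁.Nonempty) (o) :
    (comp hp h₁ h₂ h₁B h₂B hz₁ hz₂ L w hw hL₁ hL₂ j₀ D₁ D₂ o).Nonempty := by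
  obtain ⟨z, hz⟩ := hne
  induction o using Quotient.inductionOn' with
  | h e =>
    exact ⟨(tr hp h₁ h₁B hz₁ (h1 hz) e).1, Set.mem_iUnion₂.2 ⟨e, rfl, Or.inl ⟨z, h1 hz, hz, rfl⟩⟩⟩

include hL in
theorem comp_disjoint {D₁ D₂ : Set T} (hD : D₁ ∩ D₂ ⊆ ⋃ j, L j) {o o'} {x : E}
    (hx : x ∈ comp hp h₁ h₂ h₁B h₂B hz₁ hz₂ L w hw hL₁ hL₂ j₀ D₁ D₂ o)
    (hx' : x ∈ comp hp h₁ h₂ h₁B h₂B hz₁ hz₂ L w hw hL₁ hL₂ j₀ D₁ D₂ o') : o = o' := by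
  obtain ⟨e, he, hxe⟩ := Set.mem_iUnion₂.1 hx
  obtain ⟨e', he', hxe'⟩ := Set.mem_iUnion₂.1 hx'
  obtain rfl : (Quotient.mk'' e : MulAction.orbitRel.Quotient (grp hp h₁ h₂ h₁B h₂B hz₁ hz₂ L w hw hL₁ hL₂ j₀) (p ⁻¹' {z₀})) = o := he
  obtain rfl : (Quotient.mk'' e' : MulAction.orbitRel.Quotient (grp hp h₁ h₂ h₁B h₂B hz₁ hz₂ L w hw hL₁ hL₂ j₀) (p ⁻¹' {z₀})) = o' := he'
  -- the mixed case
  have key : ∀ e e' : p ⁻¹' {z₀}, x ∈ Img hp h₁ h₁B hz₁ e D₁ →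
      x ∈ Img hp h₂ h₂B hz₂
        (g hp h₁ h₂ h₁B h₂B hz₁ hz₂ (hL₁ j₀ (hw j₀)) (hL₂ j₀ (hw j₀)) e') D₂ →
      (Quotient.mk'' e : MulAction.orbitRel.Quotient (grp hp h₁ h₂ h₁B h₂B hz₁ hz₂ L w hw hL₁ hL₂ j₀) (p ⁻¹' {z₀})) = Quotient.mk'' e' := by
    intro e e' h1 h2
    obtain ⟨ha1, hd1, hc1⟩ := (mem_img_iff _ _ _ _ _ _ _).1 h1
    obtain ⟨ha2, hd2, hc2⟩ := (mem_img_iff _ _ _ _ _ _ _).1 h2
    obtain ⟨j, hj⟩ := Set.mem_iUnion.1 (hD ⟨hd1, hd2⟩)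
    -- `g (p x) e = g j₀ e'`
    have h3 : g hp h₁ h₂ h₁B h₂B hz₁ hz₂ (hL₁ j (hw j)) (hL₂ j (hw j)) e =
        g hp h₁ h₂ h₁B h₂B hz₁ hz₂ (hL₁ j₀ (hw j₀)) (hL₂ j₀ (hw j₀)) e' := by
      rw [g_eq hp h₁ h₂ h₁B h₂B hz₁ hz₂ (hL j) (hL₁ j) (hL₂ j) (hw j) hj, g_apply, ← hc1,
        tr_tr, tr_self, ← hc2]
    refine (Quotient.sound' ?_ : Quotient.mk'' e = Quotient.mk'' e')
    refine MulAction.orbitRel_apply.2 ?_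
    refine MulAction.mem_orbit_symm.1 ?_
    refine ⟨⟨_, Subgroup.subset_closure ⟨j, rfl⟩⟩, ?_⟩
    change ((g hp h₁ h₂ h₁B h₂B hz₁ hz₂ (hL₁ j₀ (hw j₀)) (hL₂ j₀ (hw j₀)))⁻¹ *
      g hp h₁ h₂ h₁B h₂B hz₁ hz₂ (hL₁ j (hw j)) (hL₂ j (hw j))) e = e'
    rw [Equiv.Perm.mul_apply, h3, perm_inv_apply]
  rcases hxe with h | h <;> rcases hxe' with h' | h'
  · obtain ⟨ha1, hd1, hc1⟩ := (mem_img_iff _ _ _ _ _ _ _).1 h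
    obtain ⟨ha2, hd2, hc2⟩ := (mem_img_iff _ _ _ _ _ _ _).1 h'
    rw [← hc1, ← hc2]
  · exact key e e' h h'
  · exact (key e' e h' h).symm
  · obtain ⟨ha1, hd1, hc1⟩ := (mem_img_iff _ _ _ _ _ _ _).1 h
    obtain ⟨ha2, hd2, hc2⟩ := (mem_img_iff _ _ _ _ _ _ _).1 h'
    have := hc1.symm.trans hc2
    rw [EmbeddingLike.apply_eq_iff_eq] at this
    rw [this]

end comp

end Groth.Agent.Pi1.H147.TwoChart
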